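import Mathlib
import Cfsg.Prelude.Def_Blocks
import Cfsg.Prelude.Def_Local
import Cfsg.Agent.Lib.ExtCl.Basic
import Cfsg.Agent.Lib.Char.Kernel
import Cfsg.Agent.Lib.Block.ConjSum
import Cfsg.Agent.Lib.Block.Principal

/-! Extremely closed abelian `p`-subgroups: definitions (project XC, plan in plans/XC.md). -/

set_option autoImplicit false
set_option linter.unusedSectionVars false

namespace CfsgLib.XC

open Subgroup Cfsg CfsgLib.PComp CfsgLib.Tech CfsgLib.Char
open scoped ComplexConjugate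

variable {G : Type*} [Group G] [Finite G]

/-- the standing hypothesis: `H` is an extremely closed abelian `p`-subgroup -/
structure Hyp (p : ℕ) (H : Subgroup G) : Prop where
  pg : IsPGroup p H
  ab : IsMulCommutative H
  cl : IsExtremelyClosed H

/-- the conclusion: the normal closure of `H` meets the normalizer inside `H` -/
def TT (H : Subgroup G) : Prop := normalClosure (H : Set G) ⊓ normalizer (H : Set G) ≤ H

/-- `K_k = O_{p'}(⟨H, H^k⟩)` -/
abbrev Kk (p : ℕ) (H : Subgroup G) (k : G) : Subgroup G := opOf p (H ⊔ cj k H)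

/-- the inverse-closed transversal of `N(H)` in `G` -/
def KK (p : ℕ) (H : Subgroup G) : Set G := {k | k ∈ Kk p H k}

theorem mem_KK {p : ℕ} {H : Subgroup G} {k : G} : k ∈ KK p H ↔ k ∈ Kk p H k := Iff.rfl

/-- a subset of a finite type as a `Finset` -/
noncomputable def fs {α : Type*} [Finite α] (S : Set α) : Finset α := (Set.toFinite S).toFinset

@[simp] theorem mem_fs {α : Type*} [Finite α] {S : Set α} {x : α} : x ∈ fs S ↔ x ∈ S :=
  Set.Finite.mem_toFinset _

theorem card_fs (A : Subgroup G) : (fs (A : Set G)).card = Nat.card A := by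
  rw [fs, ← Set.ncard_eq_toFinset_card]; rfl

theorem sum_fs {M : Type*} [AddCommMonoid M] (A : Subgroup G) [Fintype A] (f : G → M) :
    ∑ x ∈ fs (A : Set G), f x = ∑ x : A, f x :=
  Finset.sum_subtype _ (fun _ => mem_fs) f

theorem finsum_eq_fs {α M : Type*} [Finite α] [AddCommMonoid M] (S : Set α) (f : α → M) :
    ∑ᶠ x ∈ S, f x = ∑ x ∈ fs S, f x :=
  finsum_mem_eq_finite_toFinset_sum f (Set.toFinite S)

/-- the sum of `χ` over the subgroup `A` -/
noncomputable def SS (A : Subgroup G) (χ : G → ℂ) : ℂ := ∑ x ∈ fs (A : Set G), χ x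

/-- `χ` is constant on the cosets `K_k c`, `1 ≠ c ∈ H`, `k` in the transversal -/
def Good (p : ℕ) (H : Subgroup G) (χ : G → ℂ) : Prop :=
  ∀ c ∈ H, c ≠ 1 → ∀ k ∈ KK p H, ∀ s ∈ Kk p H k, χ (s * c) = χ c

/-- the principal block as a `Finset` -/
noncomputable def B0 (M : Ideal AlgInt) (G : Type*) [Group G] [Finite G] : Finset (IrrCharacter G) :=
  fs (principalBlock M G)

theorem mem_B0 {M : Ideal AlgInt} {χ : IrrCharacter G} : χ ∈ B0 M G ↔ χ ∈ principalBlock M G := mem_fs

/-- `β_a`, the sum of `|χ a|²` over the principal block -/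
noncomputable def beta (M : Ideal AlgInt) (a : G) : ℝ :=
  ∑ χ ∈ B0 M G, Complex.normSq ((χ : G → ℂ) a)

/-- the elements of `H` conjugate to `a` -/
noncomputable def Orb (H : Subgroup G) (a : G) : Finset G := fs {c | c ∈ H ∧ IsConj c a}

theorem mem_Orb {H : Subgroup G} {a c : G} : c ∈ Orb H a ↔ c ∈ H ∧ IsConj c a := mem_fs

/-- `H` contains no nontrivial normal subgroup of `G` -/
def CoreFree (H : Subgroup G) : Prop := ∀ L : Subgroup G, L.Normal → L ≤ H → L = ⊥

/-- the local information at `c` supplied by the induction -/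
def Loc (p : ℕ) (H : Subgroup G) (c : G) : Prop :=
  ∃ R : Subgroup G, R ≤ centralizer ({c} : Set G) ∧ centralizer ({c} : Set G) ≤ normalizer (R : Set G) ∧
    (Nat.card R).Coprime p ∧ R ⊓ centralizer (H : Set G) = ⊥ ∧
    ∀ s ∈ KK p H, s * c = c * s → s ∈ R

/-- the situation of the block-theoretic argument -/
structure Blk (p : ℕ) (M : Ideal AlgInt) (H : Subgroup G) : Prop where
  hyp : Hyp p H
  odd : p ≠ 2
  modu : IsPModular p M
  cf : CoreFree H
  good : ∀ χ ∈ B0 M G, Good p H (χ : G → ℂ)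

/-- every nonprincipal character of the principal block is faithful -/
def Faith (M : Ideal AlgInt) (G : Type*) [Group G] [Finite G] : Prop :=
  ∀ χ ∈ B0 M G, χ ≠ irrOne G → charKer (χ : G → ℂ) = ⊥

theorem Hyp.comm {p : ℕ} {H : Subgroup G} (h : Hyp p H) {a b : G} (ha : a ∈ H) (hb : b ∈ H) :
    a * b = b * a :=
  congrArg Subtype.val (h.ab.is_comm.comm (⟨a, ha⟩ : H) ⟨b, hb⟩)

theorem Hyp.pElt {p : ℕ} [Fact p.Prime] {H : Subgroup G} (h : Hyp p H) {a : G} (ha : a ∈ H) :
    ∃ k : ℕ, orderOf a = p ^ k :=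
  isPGroup_zpowers_iff.mp (isPGroup_zpowers_of_mem h.pg ha)

theorem Hyp.subgroupOf {p : ℕ} {H X : Subgroup G} (h : Hyp p H) (hX : H ≤ X) : Hyp p (H.subgroupOf X) :=
  ⟨h.pg.comap_subtype.of_equiv (MulEquiv.refl _),
    ⟨⟨fun a b => Subtype.ext (Subtype.ext (h.comm a.2 b.2))⟩⟩, ExtCl.subgroupOf h.cl hX⟩

theorem Hyp.map {p : ℕ} [Fact p.Prime] {H : Subgroup G} (h : Hyp p H) {G' : Type*} [Group G'] [Finite G']
    {f : G →* G'} (hf : Function.Surjective f) : Hyp p (H.map f) :=
  ⟨h.pg.map f, ⟨⟨fun a b => by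
    obtain ⟨_, ⟨x, hx, rfl⟩⟩ := a
    obtain ⟨_, ⟨y, hy, rfl⟩⟩ := b
    exact Subtype.ext (by simp only [coe_mul, ← map_mul, h.comm hx hy])⟩⟩, ExtCl.map h.pg h.ab h.cl hf⟩

end CfsgLib.XC
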