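import Mathlib
import Cfsg.Agent.Lib.XC.Defs

/-! XC/KS: the transversal `KK` (pure group theory). `T_g = H ⊔ cj g H = H ⊔ K_g` by `ExtCl.sup_opOf`, `H` Sylow in `T_g` by `ExtCl.isSylowIn`. -/

set_option autoImplicit false
set_option linter.unusedSectionVars false
set_option linter.unusedVariables false

namespace CfsgLib.XC

open Subgroup Cfsg CfsgLib.PComp CfsgLib.Tech CfsgLib.Char
open scoped ComplexConjugate

variable {G : Type*} [Group G] [Finite G] {p : ℕ} [hp : Fact p.Prime] {H : Subgroup G} {M : Ideal AlgInt}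
  {χ : G → ℂ}

/-- `x ∈ K_g ∩ N(H)` lies in `H` (`ExtCl.mem_of`), and `H ⊓ K_g = ⊥` (`isPGroup_inf_opOf`). -/
theorem Kk_inf_normalizer (h : Hyp p H) (g : G) : Kk p H g ⊓ normalizer (H : Set G) = ⊥ := by
  rw [eq_bot_iff, ← isPGroup_inf_opOf h.pg (H ⊔ cj g H)]
  exact fun x hx => ⟨ExtCl.mem_of h.cl g (opOf_le _ hx.1) hx.2, hx.1⟩

theorem not_dvd_of_mem_Kk {g s : G} (hs : s ∈ Kk p H g) : ¬ p ∣ orderOf s := by
  have h1 : orderOf s ∣ Nat.card (Kk p H g) := orderOf_dvd_natCard _ hs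
  exact (Nat.Prime.coprime_iff_not_dvd hp.out).1 ((coprime_card_opOf (H ⊔ cj g H)).coprime_dvd_left h1).symm

theorem le_normalizer_Kk (g : G) : H ≤ normalizer (Kk p H g : Set G) :=
  le_sup_left.trans (le_normalizer_opOf _)

/-- `k (b k⁻¹ b⁻¹)`, and `b` normalizes `K_k`. -/
theorem comm_mem_Kk {k : G} (hk : k ∈ KK p H) {b : G} (hb : b ∈ H) :
    k * b * k⁻¹ * b⁻¹ ∈ Kk p H k := by
  have h1 := mul_mem (mem_KK.1 hk) (conj_mem_of_mem_normalizer (le_normalizer_Kk k hb) (inv_mem (mem_KK.1 hk)))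
  simpa only [mul_assoc] using h1

theorem one_mem_KK : (1 : G) ∈ KK p H := one_mem (Kk p H 1)

/-- `H`, `cj g H` are Sylow in `T_g` (same order), so `cj g H = cj t H`, `t = k a ∈ K_g H`; then
`cj k H = cj g H`, so `K_k = K_g ∋ k`. -/
theorem exists_KK (h : Hyp p H) (g : G) : ∃ k ∈ KK p H, k⁻¹ * g ∈ normalizer (H : Set G) := by
  have h1 := ExtCl.isSylowIn h.pg h.cl g
  have h2 : IsSylowIn p (cj g H) (H ⊔ cj g H) :=
    h1.of_card_le (isPGroup_cj g h.pg) le_sup_right (card_cj g H).ge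
  obtain ⟨t, ht, e⟩ := h1.exists_cj_eq h2
  rw [← ExtCl.sup_opOf h.pg h.ab h.cl g] at ht
  obtain ⟨a, ha, o, ho, rfl⟩ := (Core.mem_sup_of_le_normalizer_right (le_normalizer_Kk g)).mp ht
  have hk : a * o * a⁻¹ ∈ Kk p H g := conj_mem_of_mem_normalizer (le_normalizer_Kk g ha) ho
  have e2 : cj (a * o * a⁻¹) H = cj g H := by
    rw [cj_mul, cj_eq_of_mem (inv_mem ha), e]
  refine ⟨a * o * a⁻¹, ?_, ?_⟩
  · rw [mem_KK, Kk, e2]
    exact hk
  · rw [mem_normalizer_iff_cj, cj_mul, ← e2, cj_inv_cj]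

omit hp in
theorem cj_eq_of_inv_mul_mem {k k' : G} (hn : k⁻¹ * k' ∈ normalizer (H : Set G)) : cj k' H = cj k H := by
  have e := congrArg (cj k) (mem_normalizer_iff_cj.1 hn)
  rwa [← cj_mul, mul_inv_cancel_left] at e

/-- `cj k H = cj k' H`, so `K_k = K_k'` contains `k⁻¹ k'`; use `Kk_inf_normalizer`. -/
theorem KK_unique (h : Hyp p H) {k k' : G} (hk : k ∈ KK p H) (hk' : k' ∈ KK p H)
    (hn : k⁻¹ * k' ∈ normalizer (H : Set G)) : k = k' := by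
  have e : cj k' H = cj k H := cj_eq_of_inv_mul_mem hn
  have h1 : k' ∈ Kk p H k := by
    have := mem_KK.1 hk'
    rwa [Kk, e] at this
  have h2 : k⁻¹ * k' ∈ Kk p H k ⊓ normalizer (H : Set G) := ⟨(Kk p H k).mul_mem ((Kk p H k).inv_mem (mem_KK.1 hk)) h1, hn⟩
  rw [Kk_inf_normalizer h, mem_bot, inv_mul_eq_one] at h2
  exact h2

/-- a `p'`-element of `T_g = H K_g` lies in `K_g` -/
theorem mem_Kk_of_not_dvd (h : Hyp p H) {g k : G} (hk : k ∈ H ⊔ cj g H) (hp' : ¬ p ∣ orderOf k) :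
    k ∈ Kk p H g := by
  rw [← ExtCl.sup_opOf h.pg h.ab h.cl g] at hk
  obtain ⟨a, ha, o, ho, rfl⟩ := (Core.mem_sup_of_le_normalizer_right (le_normalizer_Kk g)).mp hk
  have h1 : ∀ n : ℕ, (a ^ n)⁻¹ * (a * o) ^ n ∈ Kk p H g := fun n => by
    induction n with
    | zero => simp
    | succ n ih =>
      have h2 := mul_mem (conj_mem_of_mem_normalizer' (le_normalizer_Kk g ha) ih) ho
      have h3 : a⁻¹ * ((a ^ n)⁻¹ * (a * o) ^ n) * a * o = (a ^ (n + 1))⁻¹ * (a * o) ^ (n + 1) := by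
        rw [pow_succ, pow_succ, mul_inv_rev]
        simp only [mul_assoc]
      rwa [h3] at h2
  have h2 : a ^ orderOf (a * o) ∈ Kk p H g ⊓ normalizer (H : Set G) := by
    refine ⟨?_, le_normalizer (pow_mem ha _)⟩
    have := h1 (orderOf (a * o))
    rwa [pow_orderOf_eq_one, mul_one, inv_mem_iff] at this
  rw [Kk_inf_normalizer h, mem_bot, ← orderOf_dvd_iff_pow_eq_one] at h2
  obtain ⟨j, hj⟩ := h.pElt ha
  have h3 : a = 1 := by
    rw [← orderOf_eq_one_iff]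
    refine Nat.Coprime.eq_one_of_dvd ?_ h2
    rw [hj]
    exact ((Nat.Prime.coprime_iff_not_dvd hp.out).2 hp').pow_left j
  rw [h3, one_mul]
  exact ho

/-- take `k ∈ KK` with `k⁻¹ s ∈ N(H)` (`exists_KK`), `cj k H = cj s H ≤ T_g`. Then `T_k ≤ T_g = H K_g`, and the
`p'`-element `k ∈ T_g` lies in `K_g` (`T_g / K_g` is a `p`-group); so `k⁻¹ s ∈ K_g ⊓ N(H) = ⊥`. -/
theorem mem_KK_of_mem_Kk (h : Hyp p H) {g s : G} (hs : s ∈ Kk p H g) : s ∈ KK p H := by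
  obtain ⟨k, hk, hn⟩ := exists_KK h s
  have e : cj s H = cj k H := cj_eq_of_inv_mul_mem hn
  have hsT : s ∈ H ⊔ cj g H := opOf_le _ hs
  have h1 : H ⊔ cj k H ≤ H ⊔ cj g H := by
    refine sup_le le_sup_left ?_
    rw [← e]
    exact cj_le_iff.2 fun x hx => mul_mem (mul_mem hsT (mem_sup_left hx)) (inv_mem hsT)
  have hkT : k ∈ H ⊔ cj g H := h1 (opOf_le _ (mem_KK.1 hk))
  have hkK : k ∈ Kk p H g := mem_Kk_of_not_dvd h hkT (not_dvd_of_mem_Kk (mem_KK.1 hk))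
  have h2 : k⁻¹ * s ∈ Kk p H g ⊓ normalizer (H : Set G) := ⟨(Kk p H g).mul_mem ((Kk p H g).inv_mem hkK) hs, hn⟩
  rw [Kk_inf_normalizer h, mem_bot, inv_mul_eq_one] at h2
  exact h2 ▸ hk

theorem inv_mem_KK (h : Hyp p H) {k : G} (hk : k ∈ KK p H) : k⁻¹ ∈ KK p H :=
  mem_KK_of_mem_Kk h (inv_mem (mem_KK.1 hk))

/-- `c = g a g⁻¹`, `g = k n`, `a' = n a n⁻¹ ∈ H`; `c a'⁻¹ = k a' k⁻¹ a'⁻¹ ∈ K_k ⊓ H = ⊥`. -/
theorem fusion (h : Hyp p H) {a c : G} (ha : a ∈ H) (hc : c ∈ H) (hac : IsConj a c) :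
    ∃ n ∈ normalizer (H : Set G), n * a * n⁻¹ = c := by
  obtain ⟨g, rfl⟩ := isConj_iff.1 hac
  obtain ⟨k, hk, hn⟩ := exists_KK h g
  refine ⟨k⁻¹ * g, hn, ?_⟩
  have h1 : k⁻¹ * g * a * (k⁻¹ * g)⁻¹ ∈ H := conj_mem_of_mem_normalizer hn ha
  have h2 := comm_mem_Kk hk h1
  have h3 : k * (k⁻¹ * g * a * (k⁻¹ * g)⁻¹) * k⁻¹ = g * a * g⁻¹ := by group
  rw [h3] at h2
  have h4 : g * a * g⁻¹ * (k⁻¹ * g * a * (k⁻¹ * g)⁻¹)⁻¹ ∈ Kk p H k ⊓ normalizer (H : Set G) :=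
    ⟨h2, le_normalizer (mul_mem hc (inv_mem h1))⟩
  rw [Kk_inf_normalizer h, mem_bot, mul_inv_eq_one] at h4
  exact h4.symm

/-- otherwise (`g⁻¹ = k n`, so `g a g⁻¹ = n⁻¹ k⁻¹ a k n = n⁻¹ a n ∈ H`) the normal closure of `a` lies in `H`. -/
theorem exists_noncomm (h : Hyp p H) (hcf : CoreFree H) {a : G} (ha : a ∈ H) (ha1 : a ≠ 1) :
    ∃ k ∈ KK p H, k * a ≠ a * k := by
  by_contra hcon
  have hall : ∀ k ∈ KK p H, k * a = a * k := fun k hk => by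
    by_contra hne
    exact hcon ⟨k, hk, hne⟩
  have h1 : normalClosure ({a} : Set G) ≤ H := by
    refine (closure_le _).2 fun x hx => ?_
    obtain ⟨y, hy, hc⟩ := Group.mem_conjugatesOfSet_iff.1 hx
    rw [Set.mem_singleton_iff.1 hy] at hc
    obtain ⟨g, rfl⟩ := isConj_iff.1 hc
    obtain ⟨k, hk, hn⟩ := exists_KK h g⁻¹
    have h2 : (k⁻¹ * g⁻¹)⁻¹ * a * (k⁻¹ * g⁻¹) ∈ H := conj_mem_of_mem_normalizer' hn ha
    have h3 : (k⁻¹ * g⁻¹)⁻¹ * a * (k⁻¹ * g⁻¹) = g * (k * a) * k⁻¹ * g⁻¹ := by group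
    rw [h3, hall k hk] at h2
    have h4 : g * (a * k) * k⁻¹ * g⁻¹ = g * a * g⁻¹ := by group
    rw [h4] at h2
    exact h2
  have h2 := hcf _ inferInstance h1
  exact ha1 (mem_bot.1 (h2 ▸ subset_normalClosure (Set.mem_singleton a)))

/-- `g = k n` and `k ∈ H ⊔ cj k H ≤ X`. -/
theorem frattini (h : Hyp p H) {X : Subgroup G} [X.Normal] (hX : H ≤ X) :
    normalizer (H : Set G) ⊔ X = ⊤ := by
  refine eq_top_iff.2 fun g _ => ?_
  obtain ⟨k, hk, hn⟩ := exists_KK h g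
  have h1 : H ⊔ cj k H ≤ X := sup_le hX ((cj_mono k hX).trans (cj_eq_of_normal k X).le)
  have h2 := mul_mem (mem_sup_right (S := normalizer (H : Set G)) (h1 (opOf_le _ (mem_KK.1 hk)))) (mem_sup_left hn)
  rwa [mul_inv_cancel_left] at h2

/-- `(k, n) ↦ k n` is a bijection `KK × N(H) → G`. -/
theorem sum_KK (h : Hyp p H) [Fintype G] {A : Type*} [AddCommMonoid A] (F : G → A)
    (hF : ∀ g : G, ∀ n ∈ normalizer (H : Set G), F (g * n) = F g) :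
    ∑ g, F g = Nat.card (normalizer (H : Set G)) • ∑ k ∈ fs (KK p H), F k := by
  have e : ∑ x ∈ fs (KK p H) ×ˢ fs (normalizer (H : Set G) : Set G), F x.1 = ∑ g, F g := by
    refine Finset.sum_bij (fun x _ => x.1 * x.2) (fun _ _ => Finset.mem_univ _) ?_ ?_ ?_
    · rintro ⟨k, n⟩ hx ⟨k', n'⟩ hy hxy
      rw [Finset.mem_product, mem_fs, mem_fs] at hx hy
      have hxy' : k * n = k' * n' := hxy
      have h1 : k⁻¹ * k' = n * n'⁻¹ := by
        rw [inv_mul_eq_iff_eq_mul, ← mul_assoc, hxy', mul_inv_cancel_right]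
      have h2 : k = k' := KK_unique h hx.1 hy.1 (h1 ▸ mul_mem hx.2 (inv_mem hy.2))
      subst h2
      rw [mul_left_cancel hxy']
    · intro g _
      obtain ⟨k, hk, hn⟩ := exists_KK h g
      exact ⟨(k, k⁻¹ * g), Finset.mem_product.2 ⟨mem_fs.2 hk, mem_fs.2 hn⟩, mul_inv_cancel_left k g⟩
    · rintro ⟨k, n⟩ hx
      rw [Finset.mem_product, mem_fs, mem_fs] at hx
      exact (hF k n hx.2).symm
  rw [← e, Finset.sum_product, Finset.smul_sum]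
  refine Finset.sum_congr rfl fun k _ => ?_
  simp only [Finset.sum_const, card_fs]

end CfsgLib.XC
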