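import Mathlib
import Cfsg.Agent.Lib.XC.KS

/-! XC/ID: the class-sum identities. -/

set_option autoImplicit false
set_option linter.unusedSectionVars false
set_option linter.unusedVariables false

namespace CfsgLib.XC

open Subgroup Cfsg CfsgLib.PComp CfsgLib.Tech CfsgLib.Char
open scoped ComplexConjugate

variable {G : Type*} [Group G] [Finite G] {p : ℕ} [hp : Fact p.Prime] {H : Subgroup G} {M : Ideal AlgInt}
  {χ : G → ℂ}

theorem card_KK_pos : 0 < (fs (KK p H)).card := Finset.card_pos.2 ⟨1, mem_fs.2 one_mem_KK⟩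

/-- Sum `Block.irr_sum_conj_mul hχ b a` over `b ∈ D`; `F g = ∑ b ∈ D, χ (g b g⁻¹ a)` satisfies `F (g n) = F g`
(conjugation by `n` permutes `D`), so `sum_KK` applies; `sum_KK` with `F = 1` gives `|G| = |N| |KK|`. -/
theorem avg (h : Hyp p H) (hχ : IsIrrCharacter G χ) (D : Finset G)
    (hD : ∀ n ∈ normalizer (H : Set G), ∀ b ∈ D, n * b * n⁻¹ ∈ D) (a : G) :
    χ 1 * ∑ k ∈ fs (KK p H), ∑ b ∈ D, χ (k * b * k⁻¹ * a) =
      ((fs (KK p H)).card : ℂ) * (χ a * ∑ b ∈ D, χ b) := by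
  classical
  have := Fintype.ofFinite G
  have hF : ∀ g : G, ∀ n ∈ normalizer (H : Set G),
      ∑ b ∈ D, χ (g * n * b * (g * n)⁻¹ * a) = ∑ b ∈ D, χ (g * b * g⁻¹ * a) := by
    intro g n hn
    refine Finset.sum_nbij' (fun b => n * b * n⁻¹) (fun b => n⁻¹ * b * n⁻¹⁻¹) (fun b hb => hD n hn b hb)
      (fun b hb => hD _ (inv_mem hn) b hb) (fun b _ => by group) (fun b _ => by group) fun b _ => ?_
    congr 1
    group
  have h1 := sum_KK h (fun g => ∑ b ∈ D, χ (g * b * g⁻¹ * a)) hF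
  have h2 := sum_KK h (fun _ => (1 : ℂ)) fun _ _ _ => rfl
  have h3 : χ 1 * ∑ g : G, ∑ b ∈ D, χ (g * b * g⁻¹ * a) = (Nat.card G : ℂ) * (χ a * ∑ b ∈ D, χ b) := by
    rw [Finset.sum_comm, Finset.mul_sum, Finset.mul_sum, Finset.mul_sum]
    refine Finset.sum_congr rfl fun b _ => ?_
    rw [Block.irr_sum_conj_mul hχ b a, mul_comm (χ b)]
  simp only [Finset.sum_const, Finset.card_univ, nsmul_eq_mul, mul_one] at h1 h2
  have h4 : (Nat.card (normalizer (H : Set G)) : ℂ) ≠ 0 := Nat.cast_ne_zero.2 Nat.card_pos.ne'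
  refine mul_left_cancel₀ h4 ?_
  rw [h1, Nat.card_eq_fintype_card (α := G), h2] at h3
  linear_combination h3

/-- `k b k⁻¹ a = (k b k⁻¹ b⁻¹) (b a)` with `comm_mem_Kk`. -/
theorem good_val (hg : Good p H χ) {k a b : G} (hk : k ∈ KK p H) (ha : a ∈ H) (hb : b ∈ H)
    (hne : b * a ≠ 1) : χ (k * b * k⁻¹ * a) = χ (b * a) := by
  rw [← hg (b * a) (mul_mem hb ha) hne k hk _ (comm_mem_Kk hk hb)]
  congr 1
  group

/-- `avg` with `D = H`; the terms `b ≠ a⁻¹` give `∑_{c ≠ 1} χ c = SS H χ - χ 1`. -/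
theorem idI (h : Hyp p H) (hχ : IsIrrCharacter G χ) (hg : Good p H χ) {a : G} (ha : a ∈ H) :
    χ 1 * (∑ k ∈ fs (KK p H), χ (k * a⁻¹ * k⁻¹ * a) + ((fs (KK p H)).card : ℂ) * (SS H χ - χ 1)) =
      ((fs (KK p H)).card : ℂ) * (χ a * SS H χ) := by
  classical
  have hi : a⁻¹ ∈ fs (H : Set G) := mem_fs.2 (inv_mem ha)
  have h1 : SS H χ = ∑ b ∈ fs (H : Set G), χ (b * a) :=
    (Finset.sum_nbij' (fun b => b * a) (fun b => b * a⁻¹)
      (fun b hb => mem_fs.2 (mul_mem (mem_fs.1 hb) ha))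
      (fun b hb => mem_fs.2 (mul_mem (mem_fs.1 hb) (inv_mem ha))) (fun b _ => by group)
      (fun b _ => by group) fun b _ => rfl).symm
  have h2 : SS H χ - χ 1 = ∑ b ∈ (fs (H : Set G)).erase a⁻¹, χ (b * a) := by
    rw [h1, ← Finset.add_sum_erase _ _ hi, inv_mul_cancel, add_sub_cancel_left]
  have h3 := avg h hχ (fs (H : Set G))
    (fun n hn b hb => mem_fs.2 ((mem_normalizer_iff.1 hn b).1 (mem_fs.1 hb))) a
  rw [SS, ← h3, ← SS, ← nsmul_eq_mul, ← Finset.sum_const, ← Finset.sum_add_distrib]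
  congr 1
  refine Finset.sum_congr rfl fun k hk => ?_
  rw [← Finset.add_sum_erase _ _ hi, h2]
  congr 1
  refine Finset.sum_congr rfl fun b hb => ?_
  obtain ⟨hb1, hb2⟩ := Finset.mem_erase.1 hb
  exact (good_val hg (mem_fs.1 hk) ha (mem_fs.1 hb2) fun e => hb1 (eq_inv_of_mul_eq_one_left e)).symm

/-- `avg`, `good_val`, cancel `|KK| ≠ 0`. -/
theorem idD (h : Hyp p H) (hχ : IsIrrCharacter G χ) (hg : Good p H χ) (D : Finset G)
    (hDH : ∀ b ∈ D, b ∈ H) (hD : ∀ n ∈ normalizer (H : Set G), ∀ b ∈ D, n * b * n⁻¹ ∈ D) {a : G}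
    (ha : a ∈ H) (hne : ∀ b ∈ D, b * a ≠ 1) : χ 1 * ∑ b ∈ D, χ (b * a) = χ a * ∑ b ∈ D, χ b := by
  have h1 := avg h hχ D hD a
  have h2 : ∑ k ∈ fs (KK p H), ∑ b ∈ D, χ (k * b * k⁻¹ * a) =
      ((fs (KK p H)).card : ℂ) * ∑ b ∈ D, χ (b * a) := by
    rw [← nsmul_eq_mul, ← Finset.sum_const]
    exact Finset.sum_congr rfl fun k hk => Finset.sum_congr rfl fun b hb =>
      good_val hg (mem_fs.1 hk) ha (hDH b hb) (hne b hb)
  have h3 : ((fs (KK p H)).card : ℂ) ≠ 0 := Nat.cast_ne_zero.2 card_KK_pos.ne'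
  refine mul_left_cancel₀ h3 ?_
  rw [h2] at h1
  linear_combination h1

end CfsgLib.XC
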