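import Mathlib
import Cfsg.Agent.Lib.XC.Defs

/-! XC/MU: multiplicity of the trivial character in restrictions. With `χ = ρ.character`, `SS A χ = |A| * finrank (invariants of ρ.comp A.subtype)` (`sum_fs`, `classInner_rep_one`, `classInner_one_right`). -/

set_option autoImplicit false
set_option linter.unusedSectionVars false
set_option linter.unusedVariables false

namespace CfsgLib.XC

open Subgroup Cfsg CfsgLib.PComp CfsgLib.Tech CfsgLib.Char
open scoped ComplexConjugate

variable {G : Type*} [Group G] [Finite G] {p : ℕ} [hp : Fact p.Prime] {H : Subgroup G} {M : Ideal AlgInt}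
  {χ : G → ℂ}

omit hp in
theorem mu_rep {V : Type*} [AddCommGroup V] [Module ℂ V] [FiniteDimensional ℂ V]
    (ρ : Representation ℂ G V) (A : Subgroup G) :
    SS A ρ.character =
      (Nat.card A : ℂ) * (Module.finrank ℂ (Representation.invariants (ρ.comp A.subtype)) : ℕ) := by
  classical
  have := Fintype.ofFinite A
  have h := classInner_rep_one (G := A) (ρ.comp A.subtype)
  rw [classInner_one_right] at h
  rw [SS, sum_fs, ← h, ← mul_assoc, mul_inv_cancel₀ natCard_ne_zero, one_mul]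
  rfl

omit hp in
theorem mu_one (hχ : IsCharacter G χ) : ‖χ 1‖ = (χ 1).re := by
  obtain ⟨n, hn⟩ := exists_char_one_eq_nat hχ
  simp [hn]

omit hp in
theorem mu_ge {ψ : G → ℂ} [Fintype G] (hψ : IsCharacter G ψ) (s : G) :
    2 * (classInner ψ (fun _ => 1)).re - (ψ 1).re ≤ (ψ s).re := by
  refine isCharacter_induction (P := fun ψ => 2 * (classInner ψ (fun _ => 1)).re - (ψ 1).re ≤ (ψ s).re)
    (by simp [classInner_zero_left]) (fun θ ψ hθ _ ih => ?_) hψ
  have : 2 * (classInner θ (fun _ => 1)).re - (θ 1).re ≤ (θ s).re := by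
    by_cases h1 : θ = fun _ => 1
    · rw [h1, classInner_one_one]; norm_num
    · rw [classInner_irr_of_ne hθ isIrr_one h1]
      have h2 := norm_char_le (isCharacter_of_isIrr hθ) s
      rw [mu_one (isCharacter_of_isIrr hθ)] at h2
      have h3 := (abs_le.1 (Complex.abs_re_le_norm (θ s))).1
      simp only [Complex.zero_re, mul_zero]
      linarith
  simp only [classInner_add_left, Pi.add_apply, Complex.add_re] at ih ⊢
  linarith

omit hp in
theorem SS_nat (A : Subgroup G) (hχ : IsCharacter G χ) : ∃ m : ℕ, SS A χ = (Nat.card A : ℂ) * m := by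
  obtain ⟨n, ρ, rfl⟩ := hχ
  exact ⟨_, mu_rep ρ A⟩

omit hp in
/-- the invariants of `B` lie in those of `A` -/
theorem mu_mono {A B : Subgroup G} (hAB : A ≤ B) (hχ : IsCharacter G χ) {m m' : ℕ}
    (hm : SS A χ = (Nat.card A : ℂ) * m) (hm' : SS B χ = (Nat.card B : ℂ) * m') : m' ≤ m := by
  obtain ⟨n, ρ, rfl⟩ := hχ
  rw [mu_rep] at hm hm'
  have e1 := Nat.cast_injective (R := ℂ) (mul_left_cancel₀ natCard_ne_zero hm)
  have e2 := Nat.cast_injective (R := ℂ) (mul_left_cancel₀ natCard_ne_zero hm')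
  rw [← e1, ← e2]
  exact Submodule.finrank_mono fun v hv g => hv ⟨g, hAB g.2⟩

omit hp in
/-- `Re χ x ≤ ‖χ x‖ ≤ χ 1`, with equality only if `χ x = χ 1` (`norm_char_le`, `mem_charKer`). -/
theorem re_lt_of_not_mem (hχ : IsCharacter G χ) {x : G} (hx : x ∉ charKer χ) : (χ x).re < (χ 1).re := by
  have h1 := norm_char_le hχ x
  rw [mu_one hχ] at h1
  refine lt_of_le_of_ne ((Complex.re_le_norm _).trans h1) fun h => hx ((mem_charKer hχ).2 ?_)
  obtain ⟨n, hn⟩ := exists_char_one_eq_nat hχ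
  have h2 : (χ x).im = 0 := by
    have h3 : (χ x).re = ‖χ x‖ := le_antisymm (Complex.re_le_norm _) (h ▸ h1)
    exact Complex.abs_re_eq_norm.1 (by rw [h3, abs_norm])
  exact Complex.ext h (by rw [h2, hn]; simp)

omit hp in
theorem re_le (hχ : IsCharacter G χ) (x : G) : (χ x).re ≤ (χ 1).re := by
  exact (Complex.re_le_norm _).trans ((norm_char_le hχ x).trans_eq (mu_one hχ))

omit hp in
theorem SS_re_lt {A : Subgroup G} (hχ : IsCharacter G χ) (hA : ¬ A ≤ charKer χ) :
    (SS A χ).re < Nat.card A * (χ 1).re := by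
  obtain ⟨x, hx, hx'⟩ := SetLike.not_le_iff_exists.1 hA
  rw [SS, Complex.re_sum, ← card_fs, ← nsmul_eq_mul, ← Finset.sum_const]
  exact Finset.sum_lt_sum (fun i _ => re_le hχ i) ⟨x, mem_fs.2 hx, re_lt_of_not_mem hχ hx'⟩

omit hp in
/-- `χ|_A = m·1 + ψ` with `ψ` a character of `A` (decompose into irreducibles; `m` is the multiplicity of `irrOne`),
`Re ψ s ≥ -ψ 1 = m - χ 1`. -/
theorem re_ge {A : Subgroup G} (hχ : IsCharacter G χ) {m : ℕ} (hm : SS A χ = (Nat.card A : ℂ) * m)
    {s : G} (hs : s ∈ A) : 2 * (m : ℝ) - (χ 1).re ≤ (χ s).re := by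
  classical
  have := Fintype.ofFinite A
  have h := mu_ge (isCharacter_restrict A hχ) ⟨s, hs⟩
  rw [classInner_one_right, ← sum_fs A χ, ← SS, hm, ← mul_assoc, inv_mul_cancel₀ natCard_ne_zero,
    one_mul] at h
  simpa using h

omit hp in
theorem irr_one_re (hχ : IsIrrCharacter G χ) : 0 < (χ 1).re ∧ χ 1 = ((χ 1).re : ℂ) := by
  obtain ⟨n, h0, hn⟩ := exists_irr_one_eq_nat hχ
  simp [hn, h0]

end CfsgLib.XC
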