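import Mathlib
import Cfsg.Agent.Lib.XC.ID
import Cfsg.Agent.Lib.XC.MU
import Cfsg.Agent.S4735

/-! XC/KEY: sums over the principal block (`finsum_eq_fs`, `Block.block_orth_conj`, `Block.weak_block_orth`, `Block.isPBlock_principalBlock`). -/

set_option autoImplicit false
set_option linter.unusedSectionVars false
set_option linter.unusedVariables false

namespace CfsgLib.XC

open Subgroup Cfsg CfsgLib.PComp CfsgLib.Tech CfsgLib.Char
open scoped ComplexConjugate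

variable {G : Type*} [Group G] [Finite G] {p : ℕ} [hp : Fact p.Prime] {H : Subgroup G} {M : Ideal AlgInt}
  {χ : G → ℂ}

theorem irrOne_mem_B0 (hM : IsPModular p M) : irrOne G ∈ B0 M G :=
  mem_B0.2 (Block.irrOne_mem_principalBlock hM)

theorem orth (hM : IsPModular p M) {a c : G} (ha : ∃ k : ℕ, orderOf a = p ^ k)
    (hc : ∃ k : ℕ, orderOf c = p ^ k) (hn : ¬ IsConj c a) :
    ∑ ψ ∈ B0 M G, (ψ : G → ℂ) c * conj ((ψ : G → ℂ) a) = 0 := by
  rw [B0, ← finsum_eq_fs]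
  exact Block.block_orth_conj hM Block.isPBlock_principalBlock (Block.isPPart_self hp.out hc)
    (Block.isPPart_self hp.out ha) hn

omit hp in
theorem orth_conj {a c : G} (hc : IsConj c a) :
    ∑ ψ ∈ B0 M G, (ψ : G → ℂ) c * conj ((ψ : G → ℂ) a) = (beta M a : ℂ) := by
  rw [beta, Complex.ofReal_sum]
  refine Finset.sum_congr rfl fun ψ _ => ?_
  rw [classFun_eq_of_isConj (isClassFunction_of_isIrr ψ.2) hc, Complex.mul_conj]

theorem orth_reg (hM : IsPModular p M) {a s : G} (ha : p ∣ orderOf a) (hs : ¬ p ∣ orderOf s) :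
    ∑ ψ ∈ B0 M G, (ψ : G → ℂ) s * conj ((ψ : G → ℂ) a) = 0 := by
  rw [B0, ← finsum_eq_fs]
  exact Block.weak_block_orth hM Block.isPBlock_principalBlock hs ha

/-- `β_a` is a positive integer -/
theorem beta_nat (hM : IsPModular p M) (a : G) : ∃ n : ℕ, 0 < n ∧ beta M a = n := by
  rw [beta, B0, ← finsum_eq_fs]
  exact Cfsg.Agent.S4735.exists_nat hM a

/-- swap the sums; `orth`, `orth_conj` -/
theorem key1 (hM : IsPModular p M) {A : Subgroup G} (hA : IsPGroup p A) {a : G}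
    (ha : ∃ k : ℕ, orderOf a = p ^ k) :
    ∑ ψ ∈ B0 M G, SS A (ψ : G → ℂ) * conj ((ψ : G → ℂ) a) = (beta M a : ℂ) * ((Orb A a).card : ℂ) := by
  classical
  simp only [SS, Finset.sum_mul]
  rw [Finset.sum_comm]
  have e : Orb A a = (fs (A : Set G)).filter fun c => IsConj c a := by
    ext c
    rw [mem_Orb, Finset.mem_filter, mem_fs]
    rfl
  rw [e, Finset.card_filter, Nat.cast_sum, Finset.mul_sum]
  refine Finset.sum_congr rfl fun c hc => ?_
  by_cases h : IsConj c a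
  · rw [orth_conj h, if_pos h, Nat.cast_one, mul_one]
  · rw [orth hM ha (isPGroup_zpowers_iff.1 (isPGroup_zpowers_of_mem hA (mem_fs.1 hc))) h, if_neg h,
      Nat.cast_zero, mul_zero]

/-- `β |O| / q = ∑ m_ψ conj (ψ a)` is a rational algebraic integer -/
theorem key_dvd (h : Hyp p H) (hM : IsPModular p M) {a : G} (ha : a ∈ H) :
    ∃ k : ℕ, beta M a * ((Orb H a).card : ℝ) = k * (Nat.card H : ℝ) := by
  obtain ⟨n, -, hn⟩ := beta_nat hM a
  have h1 := key1 hM h.pg (h.pElt ha)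
  choose m hm using fun ψ : IrrCharacter G => SS_nat H (irr_isCharacter ψ)
  have hq : Nat.card H ≠ 0 := Nat.card_pos.ne'
  have hq' : (Nat.card H : ℂ) ≠ 0 := Nat.cast_ne_zero.2 hq
  have h2 : ((n * (Orb H a).card : ℕ) : ℂ) / (Nat.card H : ℕ) =
      ∑ ψ ∈ B0 M G, (m ψ : ℂ) * conj ((ψ : G → ℂ) a) := by
    rw [div_eq_iff hq', Finset.sum_mul, Nat.cast_mul, ← Complex.ofReal_natCast n, ← hn, ← h1]
    refine Finset.sum_congr rfl fun ψ _ => ?_
    rw [hm]; ring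
  obtain ⟨k, hk⟩ := nat_dvd_of_isIntegral_div hq (h2 ▸ IsIntegral.sum _ fun ψ _ =>
    (isIntegral_natCast _).mul (isIntegral_conj (isIntegral_char (irr_isCharacter ψ) a)))
  refine ⟨k, ?_⟩
  rw [hn, ← Nat.cast_mul, hk, Nat.cast_mul, mul_comm]

theorem key_dvd_ord {a : G} (ha : ∃ k : ℕ, orderOf a = p ^ k) (ha1 : a ≠ 1) : p ∣ orderOf a := by
  obtain ⟨k, hk⟩ := ha
  rw [hk]
  refine dvd_pow_self p fun e => ha1 ?_
  rw [e, pow_zero] at hk
  exact orderOf_eq_one_iff.1 hk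

/-- `idI` divided by `|KK| ψ 1`, multiplied by `conj (ψ a)` and summed over the block -/
theorem key2 (hb : Blk p M H) {a : G} (ha : a ∈ H) (ha1 : a ≠ 1) :
    ∑ ψ ∈ B0 M G, Complex.normSq ((ψ : G → ℂ) a) * ((SS H (ψ : G → ℂ)).re / ((ψ : G → ℂ) 1).re) =
      beta M a * ((Orb H a).card : ℝ) := by
  have hd := key_dvd_ord (hb.hyp.pElt ha) ha1
  have hn : ((fs (KK p H)).card : ℂ) ≠ 0 := Nat.cast_ne_zero.2 (card_KK_pos (p := p) (H := H)).ne'
  have h1 := key1 hb.modu hb.hyp.pg (hb.hyp.pElt ha)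
  have h2 := orth_reg (s := 1) hb.modu hd (by rw [orderOf_one]; exact hp.out.one_lt.ne' ∘ Nat.dvd_one.1)
  have h3 : ∑ ψ ∈ B0 M G, (∑ k ∈ fs (KK p H), (ψ : G → ℂ) (k * a⁻¹ * k⁻¹ * a)) * conj ((ψ : G → ℂ) a) = 0 := by
    simp only [Finset.sum_mul]
    rw [Finset.sum_comm]
    refine Finset.sum_eq_zero fun k hk => orth_reg hb.modu hd (not_dvd_of_mem_Kk (H := H) (g := k) ?_)
    have := comm_mem_Kk (mem_fs.1 hk) (inv_mem ha)
    rwa [inv_inv] at this
  apply Complex.ofReal_injective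
  apply mul_left_cancel₀ hn
  rw [Complex.ofReal_mul, Complex.ofReal_natCast, ← h1, Complex.ofReal_sum, Finset.mul_sum]
  have h4 : ∀ ψ ∈ B0 M G, ((fs (KK p H)).card : ℂ) * ((Complex.normSq ((ψ : G → ℂ) a) *
      ((SS H (ψ : G → ℂ)).re / ((ψ : G → ℂ) 1).re) : ℝ) : ℂ) =
      (∑ k ∈ fs (KK p H), (ψ : G → ℂ) (k * a⁻¹ * k⁻¹ * a)) * conj ((ψ : G → ℂ) a) +
        ((fs (KK p H)).card : ℂ) * (SS H (ψ : G → ℂ) * conj ((ψ : G → ℂ) a)) -
        ((fs (KK p H)).card : ℂ) * ((ψ : G → ℂ) 1 * conj ((ψ : G → ℂ) a)) := fun ψ hψ => by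
    have e := idI hb.hyp ψ.2 (hb.good ψ hψ) ha
    obtain ⟨m, hm⟩ := SS_nat H (irr_isCharacter ψ)
    obtain ⟨k1, k2⟩ := irr_one_re ψ.2
    have k3 : (((SS H (ψ : G → ℂ)).re : ℝ) : ℂ) = SS H (ψ : G → ℂ) := by
      rw [hm, ← Nat.cast_mul, Complex.natCast_re, Complex.ofReal_natCast]
    have k4 : (ψ : G → ℂ) 1 ≠ 0 := by
      rw [k2]
      exact Complex.ofReal_ne_zero.2 k1.ne'
    rw [Complex.ofReal_mul, Complex.ofReal_div, ← Complex.mul_conj, k3, ← k2]
    apply mul_left_cancel₀ k4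
    field_simp
    linear_combination (-conj ((ψ : G → ℂ) a)) * e
  rw [Finset.sum_congr rfl h4, Finset.sum_sub_distrib, Finset.sum_add_distrib, h3, ← Finset.mul_sum,
    ← Finset.mul_sum, h2, zero_add, mul_zero, sub_zero]

/-- real part of `∑ ψ 1 * conj (ψ a) = 0`: the principal character contributes `1` -/
theorem exists_neg (hM : IsPModular p M) {a : G} (ha : p ∣ orderOf a) :
    ∃ ψ ∈ B0 M G, ψ ≠ irrOne G ∧ ((ψ : G → ℂ) a).re < 0 := by
  by_contra hn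
  push Not at hn
  have h2 := congrArg Complex.re
    (orth_reg (s := 1) hM ha (by rw [orderOf_one]; exact hp.out.one_lt.ne' ∘ Nat.dvd_one.1))
  rw [Complex.re_sum, Complex.zero_re] at h2
  refine (Finset.sum_pos' (fun ψ hψ => ?_) ⟨irrOne G, irrOne_mem_B0 hM, by simp [irrOne_coe]⟩).ne' h2
  obtain ⟨k1, k2⟩ := irr_one_re ψ.2
  rw [k2, Complex.re_ofReal_mul, Complex.conj_re]
  refine mul_nonneg k1.le ?_
  by_cases e : ψ = irrOne G
  · rw [e]; simp [irrOne_coe]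
  · exact hn ψ hψ e

end CfsgLib.XC
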