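import Mathlib
import Cfsg.Agent.Lib.XC.ID
import Cfsg.Agent.Lib.XC.MU

/-! XC/TB: the bound `SS H χ ≤ 2 χ 1`. -/

set_option autoImplicit false
set_option linter.unusedSectionVars false
set_option linter.unusedVariables false

namespace CfsgLib.XC

open Subgroup Cfsg CfsgLib.PComp CfsgLib.Tech CfsgLib.Char
open scoped ComplexConjugate

variable {G : Type*} [Group G] [Finite G] {p : ℕ} [hp : Fact p.Prime] {H : Subgroup G} {M : Ideal AlgInt}
  {χ : G → ℂ}

open scoped Pointwise in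
theorem tb_sum (h : Hyp p H) (g : G) {A : Type*} [AddCommMonoid A] (f : G → A) :
    ∑ x ∈ fs ((H ⊔ cj g H : Subgroup G) : Set G), f x =
      ∑ s ∈ fs (Kk p H g : Set G), ∑ c ∈ fs (H : Set G), f (s * c) := by
  have e : ((H ⊔ cj g H : Subgroup G) : Set G) = (Kk p H g : Set G) * (H : Set G) := by
    rw [← coe_mul_of_right_le_normalizer_left _ _ (le_normalizer_Kk (p := p) g), sup_comm (Kk p H g),
      ExtCl.sup_opOf h.pg h.ab h.cl g]
  rw [← Finset.sum_product']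
  symm
  refine Finset.sum_bij (fun x _ => x.1 * x.2) (fun x hx => ?_) (fun x hx y hy exy => ?_) (fun b hb => ?_)
    fun _ _ => rfl
  · rw [Finset.mem_product, mem_fs, mem_fs] at hx
    rw [mem_fs, e]
    exact Set.mul_mem_mul hx.1 hx.2
  · rw [Finset.mem_product, mem_fs, mem_fs] at hx hy
    have h1 : y.1⁻¹ * x.1 = y.2 * x.2⁻¹ := by
      rw [inv_mul_eq_iff_eq_mul, ← mul_assoc, eq_mul_inv_iff_mul_eq]; exact exy
    have h2 : y.1⁻¹ * x.1 ∈ Kk p H g ⊓ normalizer (H : Set G) :=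
      ⟨(Kk p H g).mul_mem ((Kk p H g).inv_mem hy.1) hx.1, h1 ▸ le_normalizer (H.mul_mem hy.2 (H.inv_mem hx.2))⟩
    rw [Kk_inf_normalizer h g, mem_bot, inv_mul_eq_one] at h2
    exact Prod.ext h2.symm (mul_left_cancel (a := x.1) (by rw [exy, h2]))
  · rw [mem_fs, e] at hb
    obtain ⟨s, hs, c, hc, rfl⟩ := hb
    exact ⟨(s, c), Finset.mem_product.2 ⟨mem_fs.2 hs, mem_fs.2 hc⟩, rfl⟩

omit hp in
theorem tb_erase [DecidableEq G] (f : G → ℂ) : ∑ c ∈ (fs (H : Set G)).erase 1, f c = SS H f - f 1 :=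
  Finset.sum_erase_eq_sub (mem_fs.2 H.one_mem)

/-- `T_g = K_g H`, `K_g ⊓ H = ⊥` -/
theorem card_sup (h : Hyp p H) (g : G) :
    Nat.card ↥(H ⊔ cj g H) = Nat.card (Kk p H g) * Nat.card H := by
  have := tb_sum h g (fun _ => (1 : ℕ))
  simpa only [Finset.sum_const, card_fs, smul_eq_mul, mul_one] using this

/-- `(s, c) ↦ s c` is a bijection `K_k × H → T_k`; `Good` on the cosets `c ≠ 1`. -/
theorem SS_sup (h : Hyp p H) (hg : Good p H χ) {k : G} (hk : k ∈ KK p H) :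
    SS (H ⊔ cj k H) χ = SS (Kk p H k) χ + (Nat.card (Kk p H k) : ℂ) * (SS H χ - χ 1) := by
  classical
  rw [SS, tb_sum h k, SS, ← card_fs, ← nsmul_eq_mul, ← Finset.sum_const, ← Finset.sum_add_distrib]
  refine Finset.sum_congr rfl fun s hs => ?_
  rw [← Finset.add_sum_erase _ _ (mem_fs.2 H.one_mem), mul_one, ← tb_erase]
  refine congrArg _ (Finset.sum_congr rfl fun c hc => ?_)
  rw [Finset.mem_erase, mem_fs] at hc
  exact hg c hc.2 hc.1 k hk s (mem_fs.1 hs)

/-- `q = |H|`, `S = SS H χ`, `n = χ 1`, `m_K`, `m_T` the multiplicities (`SS_nat`): `SS_sup`, `card_sup` give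
`q m_T = m_K + S - n`, `mu_mono` gives `m_T ≤ m_K`, so `(q-1) m_K ≥ S - n`; now `re_ge`. -/
theorem re_ge_Kk (h : Hyp p H) (hχ : IsCharacter G χ) (hg : Good p H χ) {k : G} (hk : k ∈ KK p H)
    {s : G} (hs : s ∈ Kk p H k) :
    2 * ((SS H χ).re - (χ 1).re) - ((Nat.card H : ℝ) - 1) * (χ 1).re ≤ ((Nat.card H : ℝ) - 1) * (χ s).re := by
  obtain ⟨mK, hK⟩ := SS_nat (Kk p H k) hχ
  obtain ⟨mT, hT⟩ := SS_nat (H ⊔ cj k H) hχ
  have h1 : (mT : ℝ) ≤ mK := by exact_mod_cast mu_mono (opOf_le _) hχ hK hT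
  have h2 := SS_sup h hg hk
  rw [hK, hT, card_sup (p := p) h k, Nat.cast_mul, mul_assoc, ← mul_add] at h2
  have h3 := congrArg Complex.re (mul_left_cancel₀ (by exact_mod_cast Nat.card_pos.ne') h2)
  simp only [Complex.mul_re, Complex.natCast_re, Complex.natCast_im, mul_zero, sub_zero, Complex.add_re,
    Complex.sub_re] at h3
  have h4 := re_ge hχ hK hs
  have h5 : (1 : ℝ) ≤ Nat.card H := by exact_mod_cast Nat.card_pos
  nlinarith [mul_le_mul_of_nonneg_left h4 (sub_nonneg.2 h5), mul_le_mul_of_nonneg_left h1 (zero_le_one.trans h5)]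

/-- Sum the real part of `idI` over the `q - 1` elements `a ≠ 1` of `H` (`∑ χ a = S - n`), bound each
`χ (k a⁻¹ k⁻¹ a)` by `re_ge_Kk` (`comm_mem_Kk` with `b = a⁻¹`):
`n (2 (S-n) - (q-1) n + (q-1)(S-n)) ≤ (S-n) S`, i.e. `0 ≤ (S - 2n)(S - qn)`; and `S < q n` by `SS_re_lt`. -/
theorem SS_le (h : Hyp p H) (hχ : IsIrrCharacter G χ) (hg : Good p H χ) (hk : ¬ H ≤ charKer χ) :
    (SS H χ).re ≤ 2 * (χ 1).re := by
  classical
  have hc := isCharacter_of_isIrr hχ
  obtain ⟨n0, n1⟩ := irr_one_re hχ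
  obtain ⟨m, hm⟩ := SS_nat H hc
  have hS : SS H χ = ((SS H χ).re : ℂ) := by rw [hm]; norm_cast
  have hlt := SS_re_lt hc hk
  have hq : (1 : ℝ) < Nat.card H := by
    exact_mod_cast (one_lt_card_iff_ne_bot H).2 fun e => hk (e ▸ bot_le)
  have hN : (0 : ℝ) < (fs (KK p H)).card := by exact_mod_cast card_KK_pos
  set n := (χ 1).re
  set S := (SS H χ).re
  set q : ℝ := ((Nat.card H : ℕ) : ℝ) with hqd
  have each : ∀ a ∈ (fs (H : Set G)).erase 1,
      n * (2 * (S - n) - (q - 1) * n + (q - 1) * (S - n)) ≤ (q - 1) * S * (χ a).re := by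
    intro a ha
    have ha' : a ∈ H := mem_fs.1 (Finset.mem_of_mem_erase ha)
    have h1 := congrArg Complex.re (idI h hχ hg ha')
    rw [hS, n1] at h1
    simp only [Complex.mul_re, Complex.natCast_re, Complex.natCast_im, Complex.ofReal_re, Complex.ofReal_im,
      mul_zero, zero_mul, sub_zero, Complex.add_re, Complex.sub_re, Complex.re_sum] at h1
    have h2 : ∑ _k ∈ fs (KK p H), (2 * (S - n) - (q - 1) * n) ≤
        ∑ k ∈ fs (KK p H), (q - 1) * (χ (k * a⁻¹ * k⁻¹ * a)).re := Finset.sum_le_sum fun k hk' => by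
      have := comm_mem_Kk (mem_fs.1 hk') (H.inv_mem ha')
      rw [inv_inv] at this
      exact re_ge_Kk h hc hg (mem_fs.1 hk') this
    rw [Finset.sum_const, nsmul_eq_mul, ← Finset.mul_sum] at h2
    refine le_of_mul_le_mul_left ?_ hN
    have h3 := mul_le_mul_of_nonneg_left h2 n0.le
    linear_combination h3 + (q - 1) * h1
  have h1 := Finset.sum_le_sum each
  rw [Finset.sum_const, ← Finset.mul_sum, ← Complex.re_sum, tb_erase, Finset.card_erase_of_mem (mem_fs.2 H.one_mem),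
    card_fs, nsmul_eq_mul, Nat.cast_sub Nat.card_pos, Nat.cast_one, Complex.sub_re, mul_assoc] at h1
  have h2 := le_of_mul_le_mul_left h1 (sub_pos.2 hq)
  by_contra! h3
  nlinarith [mul_pos (sub_pos.2 h3) (sub_pos.2 hlt)]

end CfsgLib.XC
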