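import Mathlib
import Cfsg.Agent.Lib.XC.KS

/-! XC/LOC: `Good` from local constancy. -/

set_option autoImplicit false
set_option linter.unusedSectionVars false
set_option linter.unusedVariables false

namespace CfsgLib.XC

open Subgroup Cfsg CfsgLib.PComp CfsgLib.Tech CfsgLib.Char
open scoped ComplexConjugate

variable {G : Type*} [Group G] [Finite G] {p : ℕ} [hp : Fact p.Prime] {H : Subgroup G} {M : Ideal AlgInt}
  {χ : G → ℂ}

/-- `c` a `p`-element normalizing the `p'`-group `K`, `s ∈ K`: `s c` is `K⟨c⟩`-conjugate to `w c`, `w ∈ C_K(c)`.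
Proof: `⟨c⟩` is Sylow in `Γ = K ⊔ ⟨c⟩`; `s c = x y` (`p`-part `x`, `Block.exists_isPPart`, both powers of `s c`), the
`p'`-element `y` lies in `K`; conjugate `x` into `⟨c⟩` by `t ∈ Γ`; `t x t⁻¹ ≡ c mod K` (`Γ/K` is cyclic, generated by `c`)
and `K ⊓ ⟨c⟩ = ⊥`, so `t x t⁻¹ = c`, `w = t y t⁻¹`.  (Alternative: `Glaub.fib_of_coprime` counting.) -/
theorem exists_conj_cent {K : Subgroup G} (hK : (Nat.card K).Coprime p) {c : G}
    (hc : ∃ k : ℕ, orderOf c = p ^ k) (hn : c ∈ normalizer (K : Set G)) {s : G} (hs : s ∈ K) :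
    ∃ w ∈ K, w * c = c * w ∧ IsConj (s * c) (w * c) := by
  classical
  obtain ⟨k, hk⟩ := hc
  have hpow : ∀ j : ℕ, (s * c) ^ j * (c ^ j)⁻¹ ∈ K := fun j => by
    induction j with
    | zero => simp
    | succ j ih =>
      have e : (s * c) ^ (j + 1) * (c ^ (j + 1))⁻¹ = s * (c * ((s * c) ^ j * (c ^ j)⁻¹) * c⁻¹) := by
        rw [pow_succ' (s * c), pow_succ' c]; simp only [mul_inv_rev, mul_assoc]
      rw [e]
      exact mul_mem hs (conj_mem_of_mem_normalizer hn ih)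
  have hq : c ^ p ^ k = 1 := by rw [← hk, pow_orderOf_eq_one]
  obtain ⟨m, h1, h2⟩ := Nat.chineseRemainder (hK.symm.pow_left k) 1 0
  have cm : c ^ m = c := (pow_eq_pow_iff_modEq.2 (hk ▸ h1)).trans (pow_one c)
  have hx : (s * c) ^ m * c⁻¹ ∈ K := by have := hpow m; rwa [cm] at this
  have hxq : ((s * c) ^ m) ^ p ^ k = 1 := by
    have h3 := hpow (p ^ k)
    rw [hq, inv_one, mul_one] at h3
    rw [← pow_mul, mul_comm m, pow_mul]
    exact orderOf_dvd_iff_pow_eq_one.1 ((orderOf_dvd_natCard K h3).trans (Nat.modEq_zero_iff_dvd.1 h2))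
  have hcm : Commute (s * c) ((s * c) ^ m) := (Commute.refl _).pow_right m
  generalize (s * c) ^ m = x at hx hxq hcm
  have hf : ∀ a ∈ K, x * a * c⁻¹ ∈ K := fun a ha => by
    rw [show x * a * c⁻¹ = x * c⁻¹ * (c * a * c⁻¹) by group]
    exact mul_mem hx (conj_mem_of_mem_normalizer hn ha)
  let f : K → K := fun a => ⟨x * a * c⁻¹, hf a a.2⟩
  have hi : Function.Injective f := fun a b e => Subtype.ext (by simpa [f] using e)
  let σ : Equiv.Perm K := Equiv.ofBijective f (Finite.injective_iff_bijective.1 hi)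
  have hσ : ∀ (j : ℕ) (a : K), ((σ ^ j) a : G) = x ^ j * a * (c ^ j)⁻¹ := fun j => by
    induction j with
    | zero => simp
    | succ j ih =>
      intro a
      rw [pow_succ' σ, Equiv.Perm.mul_apply, pow_succ' x, pow_succ' c]
      change x * ((σ ^ j) a : G) * c⁻¹ = _
      rw [ih]; simp only [mul_inv_rev, mul_assoc]
  have := Fintype.ofFinite K
  obtain ⟨a, ha⟩ := Equiv.Perm.exists_fixed_point_of_prime (p := p) (n := k) (σ := σ)
    (by rw [← Nat.card_eq_fintype_card]; exact (hp.out.coprime_iff_not_dvd).1 hK.symm)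
    (Equiv.ext fun a => Subtype.ext (by rw [hσ, hxq, hq]; simp))
  have e : x * a * c⁻¹ = a := congrArg Subtype.val ha
  have e1 : c = (a : G)⁻¹ * x * a := by rw [mul_assoc, mul_inv_eq_iff_eq_mul.1 e]; group
  have hy : s * c * x⁻¹ ∈ K := by
    rw [show s * c * x⁻¹ = s * (x * c⁻¹)⁻¹ by group]
    exact mul_mem hs (inv_mem hx)
  generalize s * c = g at hcm hy
  refine ⟨(a : G)⁻¹ * (g * x⁻¹) * a, mul_mem (mul_mem (inv_mem a.2) hy) a.2, ?_,
    isConj_iff.2 ⟨(a : G)⁻¹, by rw [e1]; group⟩⟩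
  rw [e1]
  calc _ = (a : G)⁻¹ * g * a := by group
    _ = (a : G)⁻¹ * (x * g * x⁻¹) * a := by rw [← hcm.eq, mul_inv_cancel_right]
    _ = _ := by group

/-- `exists_conj_cent` with `K = K_k`, and `mem_KK_of_mem_Kk`. -/
theorem good_of_local (h : Hyp p H) (hχ : IsClassFunction G χ)
    (hl : ∀ c ∈ H, c ≠ 1 → ∀ s ∈ KK p H, s * c = c * s → χ (s * c) = χ c) : Good p H χ := by
  intro c hc h1 k hk s hs
  obtain ⟨w, hw, e, hj⟩ := exists_conj_cent (coprime_card_opOf _) (h.pElt hc) (le_normalizer_Kk k hc) hs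
  obtain ⟨t, ht⟩ := isConj_iff.1 hj
  rw [← hl c hc h1 w (mem_KK_of_mem_Kk h hw) e, ← ht, hχ]

/-- `R ≤ O_{p'}(C(c))` (`le_opOf`, `centralizerPPrimeCore_eq`) and
`Block.principal_mul_of_mem_centralizerPPrimeCore`. -/
theorem good_B0 (h : Hyp p H) (hM : IsPModular p M) (hl : ∀ c ∈ H, c ≠ 1 → Loc p H c) :
    ∀ ψ ∈ B0 M G, Good p H (ψ : G → ℂ) := by
  intro ψ hψ
  refine good_of_local h (irr_isClassFunction ψ) fun c hc h1 s hs e => ?_
  obtain ⟨R, r1, r2, r3, -, r5⟩ := hl c hc h1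
  rw [e]
  exact Block.principal_mul_of_mem_centralizerPPrimeCore hM (h.pElt hc)
    (le_opOf r1 r2 r3 (r5 s hs e)) (mem_B0.1 hψ)

end CfsgLib.XC
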