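import Mathlib
import Cfsg.Agent.Lib.XC.ID
import Cfsg.Agent.Lib.XC.MU

/-! XC/TA: `SS H χ ≠ 0` and reality. -/

set_option autoImplicit false
set_option linter.unusedSectionVars false
set_option linter.unusedVariables false

namespace CfsgLib.XC

open Subgroup Cfsg CfsgLib.PComp CfsgLib.Tech CfsgLib.Char
open scoped ComplexConjugate

variable {G : Type*} [Group G] [Finite G] {p : ℕ} [hp : Fact p.Prime] {H : Subgroup G} {M : Ideal AlgInt}
  {χ : G → ℂ}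

/-- If `SS H χ = 0`, `idI` gives `∑_k χ (k a⁻¹ k⁻¹ a) = |KK| χ 1`, so (`re_le`, `re_lt_of_not_mem`) every
`k a⁻¹ k⁻¹ a` is in the kernel, i.e. trivial; this contradicts `exists_noncomm` for `1 ≠ a ∈ H`. -/
theorem SS_ne_zero (h : Hyp p H) (hcf : CoreFree H) (hH : H ≠ ⊥) (hχ : IsIrrCharacter G χ)
    (hg : Good p H χ) (hf : charKer χ = ⊥) : SS H χ ≠ 0 := by
  intro hS
  obtain ⟨a, ha, a1⟩ := (bot_or_exists_ne_one H).resolve_left hH
  have hc := isCharacter_of_isIrr hχ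
  have h1 : χ 1 ≠ 0 := fun e => by simpa [e] using (irr_one_re hχ).1
  have e := idI h hχ hg ha
  rw [hS, mul_zero, mul_zero, mul_eq_zero, or_iff_right h1, zero_sub, mul_neg, add_neg_eq_zero,
    ← nsmul_eq_mul, ← Finset.sum_const] at e
  have e2 := congrArg Complex.re e
  rw [Complex.re_sum, Complex.re_sum] at e2
  obtain ⟨k, hk, ka⟩ := exists_noncomm h hcf ha a1
  refine (Finset.sum_lt_sum (fun k _ => re_le hc _)
    ⟨k, mem_fs.2 hk, re_lt_of_not_mem hc fun m => ka ?_⟩).ne e2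
  rw [hf, mem_bot] at m
  calc k * a = a * (k * a⁻¹ * k⁻¹ * a)⁻¹ * k := by group
    _ = _ := by rw [m]; group

/-- `conj χ (k a⁻¹ k⁻¹ a) = χ (a⁻¹ k a k⁻¹) = χ (k⁻¹ a⁻¹ k a)` (`char_inv`, class function), and `k ↦ k⁻¹` permutes
`KK` (`inv_mem_KK`): the sum in `idI` is real; `χ 1` and `SS H χ` are real (`SS_nat`); cancel. -/
theorem conj_eq (h : Hyp p H) (hχ : IsIrrCharacter G χ) (hg : Good p H χ) (hS : SS H χ ≠ 0) {a : G}
    (ha : a ∈ H) : conj (χ a) = χ a := by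
  have hc := isCharacter_of_isIrr hχ
  have e := idI h hχ hg ha
  have c1 : conj (χ 1) = χ 1 := by rw [← char_inv hc, inv_one]
  have c2 : conj (SS H χ) = SS H χ := by
    obtain ⟨m, hm⟩ := SS_nat H hc
    rw [hm, map_mul, map_natCast, map_natCast]
  have c3 : conj (∑ k ∈ fs (KK p H), χ (k * a⁻¹ * k⁻¹ * a)) =
      ∑ k ∈ fs (KK p H), χ (k * a⁻¹ * k⁻¹ * a) := by
    rw [map_sum]
    refine Finset.sum_nbij' (·⁻¹) (·⁻¹) (fun k hk => mem_fs.2 (inv_mem_KK h (mem_fs.1 hk)))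
      (fun k hk => mem_fs.2 (inv_mem_KK h (mem_fs.1 hk))) (fun _ _ => inv_inv _)
      (fun _ _ => inv_inv _) fun k _ => ?_
    rw [← char_inv hc, ← isClassFunction_of_isCharacter hc _ k⁻¹]
    congr 1
    group
  have e2 := congrArg conj e
  simp only [map_mul, map_add, map_sub, map_natCast, c1, c2, c3] at e2
  exact mul_right_cancel₀ hS (mul_left_cancel₀ (Nat.cast_ne_zero.2 card_KK_pos.ne') (e2.symm.trans e))

/-- `|H| = p`: for `1 ≠ a ∈ H` the map `k ↦ k a⁻¹ k⁻¹ a` sends `KK` to `KK` (`comm_mem_Kk`, `mem_KK_of_mem_Kk`) and is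
injective (`k'⁻¹ k` centralizes `a`, hence normalizes `H = ⟨a⟩`; `KK_unique`), so the sum in `idI` is `∑_{s ∈ KK} χ s`,
independent of `a`; cancel `|KK| * SS H χ`. -/
theorem const_of_prime (h : Hyp p H) (hq : Nat.card H = p) (hχ : IsIrrCharacter G χ) (hg : Good p H χ)
    (hS : SS H χ ≠ 0) {a b : G} (ha : a ∈ H) (ha1 : a ≠ 1) (hb : b ∈ H) (hb1 : b ≠ 1) : χ a = χ b := by
  have key : ∀ a ∈ H, a ≠ 1 →
      ∑ k ∈ fs (KK p H), χ (k * a⁻¹ * k⁻¹ * a) = ∑ k ∈ fs (KK p H), χ k := fun a ha a1 => by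
    have m : ∀ k ∈ fs (KK p H), k * a⁻¹ * k⁻¹ * a ∈ fs (KK p H) := fun k hk => by
      have := comm_mem_Kk (mem_fs.1 hk) (inv_mem ha)
      rw [inv_inv] at this
      exact mem_fs.2 (mem_KK_of_mem_Kk h this)
    have i : ∀ k ∈ fs (KK p H), ∀ k' ∈ fs (KK p H),
        k * a⁻¹ * k⁻¹ * a = k' * a⁻¹ * k'⁻¹ * a → k = k' := fun k hk k' hk' e => by
      refine KK_unique h (mem_fs.1 hk) (mem_fs.1 hk') (mem_normalizer_fintype fun y hy => ?_)
      obtain ⟨n, hn⟩ := mem_zpowers_of_prime_card hq (g := (⟨a, ha⟩ : H)) (g' := ⟨y, hy⟩)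
        fun e => a1 (congrArg Subtype.val e)
      have c : k⁻¹ * k' * a * (k⁻¹ * k')⁻¹ = a := by
        calc _ = k⁻¹ * (a * (k' * a⁻¹ * k'⁻¹ * a)⁻¹) * k := by group
          _ = a := by rw [← e]; group
      have hy' : a ^ n = y := congrArg Subtype.val hn
      rw [← hy', ← conj_zpow, c, hy']
      exact hy
    exact Finset.sum_bij (fun k _ => k * a⁻¹ * k⁻¹ * a) m i (fun b hb => by
      obtain ⟨k, hk, e⟩ := Finset.surj_on_of_inj_on_of_card_le (fun k _ => k * a⁻¹ * k⁻¹ * a) m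
        (fun k k' hk hk' => i k hk k' hk') le_rfl b hb
      exact ⟨k, hk, e.symm⟩) fun _ _ => rfl
  have e1 := idI h hχ hg ha
  have e2 := idI h hχ hg hb
  rw [key a ha ha1] at e1
  rw [key b hb hb1] at e2
  exact mul_right_cancel₀ hS (mul_left_cancel₀ (Nat.cast_ne_zero.2 card_KK_pos.ne') (e1.symm.trans e2))

end CfsgLib.XC
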