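import Mathlib
import Cfsg.Agent.Lib.XC.TA
import Cfsg.Agent.Lib.XC.TB
import Cfsg.Agent.Lib.XC.KEY

/-! XC/FA: in the faithful case `a^G ∩ H = {a, a⁻¹}`. -/

set_option autoImplicit false
set_option linter.unusedSectionVars false
set_option linter.unusedVariables false

namespace CfsgLib.XC

open Subgroup Cfsg CfsgLib.PComp CfsgLib.Tech CfsgLib.Char
open scoped ComplexConjugate

variable {G : Type*} [Group G] [Finite G] {p : ℕ} [hp : Fact p.Prime] {H : Subgroup G} {M : Ideal AlgInt}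
  {χ : G → ℂ}

/-- all `ψ a` are real (`conj_eq`, `SS_ne_zero`; `irrOne`), so `∑ ψ a⁻¹ * conj (ψ a) = β > 0` and `orth` fails -/
theorem isConj_inv (hb : Blk p M H) (hf : Faith M G) {a : G} (ha : a ∈ H) (ha1 : a ≠ 1) :
    IsConj a⁻¹ a := by
  by_contra hn
  have hH : H ≠ ⊥ := fun e => ha1 (mem_bot.1 (e ▸ ha))
  have h0 := orth hb.modu (hb.hyp.pElt ha) (hb.hyp.pElt (inv_mem ha)) hn
  have h1 : ∑ ψ ∈ B0 M G, (ψ : G → ℂ) a⁻¹ * conj ((ψ : G → ℂ) a) =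
      ∑ ψ ∈ B0 M G, (ψ : G → ℂ) a * conj ((ψ : G → ℂ) a) := Finset.sum_congr rfl fun ψ hψ => by
    by_cases e : ψ = irrOne G
    · rw [e]; rfl
    · rw [char_inv (irr_isCharacter ψ), conj_eq hb.hyp ψ.2 (hb.good ψ hψ)
        (SS_ne_zero hb.hyp hb.cf hH ψ.2 (hb.good ψ hψ) (hf ψ hψ e)) ha]
  obtain ⟨n, hn0, e⟩ := beta_nat hb.modu a
  rw [h1, orth_conj (IsConj.refl a), e] at h0
  exact hn0.ne' (by exact_mod_cast h0)

/-- `x_ψ = S_ψ / ψ 1` satisfies `0 < x_ψ ≤ 2` for `ψ ≠ 1` (`SS_nat`, `SS_ne_zero`, `SS_le`) and `x_1 = q`. By `key2`,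
`β |O| = q + ∑_{ψ ≠ 1} |ψ a|² x_ψ`, so `q < β |O| ≤ q + 2 (β - 1)` (`exists_neg`), and `β |O| ≥ 2 q` by `key_dvd`.
If `|O| ≥ 4` then `β |O| - 2 β ≥ β |O| / 2 ≥ q`, a contradiction. -/
theorem card_Orb_le (hb : Blk p M H) (hf : Faith M G) {a : G} (ha : a ∈ H) (ha1 : a ≠ 1) :
    (Orb H a).card ≤ 3 := by
  classical
  by_contra h4
  have h4 : (4 : ℝ) ≤ (Orb H a).card := by exact_mod_cast (not_le.1 h4)
  have hH : H ≠ ⊥ := fun e => ha1 (mem_bot.1 (e ▸ ha))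
  have hq : (0 : ℝ) < Nat.card H := by exact_mod_cast Nat.card_pos
  have hx : ∀ ψ ∈ (B0 M G).erase (irrOne G), 0 < (SS H (ψ : G → ℂ)).re / ((ψ : G → ℂ) 1).re ∧
      (SS H (ψ : G → ℂ)).re / ((ψ : G → ℂ) 1).re ≤ 2 := fun ψ hψ => by
    obtain ⟨e, hψ⟩ := Finset.mem_erase.1 hψ
    have k := hf ψ hψ e
    have h1 := (irr_one_re ψ.2).1
    refine ⟨div_pos ?_ h1, (div_le_iff₀ h1).2 (SS_le hb.hyp ψ.2 (hb.good ψ hψ) fun h => hH (le_bot_iff.1 (k ▸ h)))⟩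
    have h2 := SS_ne_zero hb.hyp hb.cf hH ψ.2 (hb.good ψ hψ) k
    obtain ⟨m, hm⟩ := SS_nat H (irr_isCharacter ψ)
    rw [hm] at h2 ⊢
    have h3 : m ≠ 0 := fun e => h2 (by rw [e]; simp)
    rw [← Nat.cast_mul, Complex.natCast_re, Nat.cast_mul]
    exact mul_pos hq (by exact_mod_cast Nat.pos_of_ne_zero h3)
  have h1 := key2 hb ha ha1
  have hβ : beta M a = 1 + ∑ ψ ∈ (B0 M G).erase (irrOne G), Complex.normSq ((ψ : G → ℂ) a) := by
    rw [beta, ← Finset.add_sum_erase _ _ (irrOne_mem_B0 hb.modu), irrOne_apply, map_one]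
  have hS : (SS H (irrOne G : G → ℂ)).re = Nat.card H := by
    simp only [SS, irrOne_apply, Finset.sum_const, card_fs, nsmul_eq_mul, mul_one, Complex.natCast_re]
  rw [← Finset.add_sum_erase _ _ (irrOne_mem_B0 hb.modu), hS, irrOne_apply, irrOne_apply, map_one, Complex.one_re,
    div_one, one_mul] at h1
  obtain ⟨j, hj⟩ := hb.hyp.pElt ha
  obtain ⟨ψ, hψ, e, hneg⟩ := exists_neg hb.modu (a := a) (by
    rw [hj]
    refine dvd_pow_self p fun e => ha1 ?_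
    rwa [e, pow_zero, orderOf_eq_one_iff] at hj)
  have h2 : 0 < ∑ ψ ∈ (B0 M G).erase (irrOne G),
      Complex.normSq ((ψ : G → ℂ) a) * ((SS H (ψ : G → ℂ)).re / ((ψ : G → ℂ) 1).re) :=
    Finset.sum_pos' (fun ψ hψ => mul_nonneg (Complex.normSq_nonneg _) (hx ψ hψ).1.le)
      ⟨ψ, Finset.mem_erase.2 ⟨e, hψ⟩, mul_pos (Complex.normSq_pos.2 fun e => by
        rw [e] at hneg; exact lt_irrefl _ hneg) (hx ψ (Finset.mem_erase.2 ⟨e, hψ⟩)).1⟩
  have h3 : ∑ ψ ∈ (B0 M G).erase (irrOne G),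
      Complex.normSq ((ψ : G → ℂ) a) * ((SS H (ψ : G → ℂ)).re / ((ψ : G → ℂ) 1).re) ≤
      (∑ ψ ∈ (B0 M G).erase (irrOne G), Complex.normSq ((ψ : G → ℂ) a)) * 2 := by
    rw [Finset.sum_mul]
    exact Finset.sum_le_sum fun ψ hψ => mul_le_mul_of_nonneg_left (hx ψ hψ).2 (Complex.normSq_nonneg _)
  obtain ⟨k, hk⟩ := key_dvd hb.hyp hb.modu ha
  have hk1 : (1 : ℝ) < k := lt_of_mul_lt_mul_right (by linarith) hq.le
  have hk2 : (2 : ℝ) ≤ k := by exact_mod_cast (show 1 < k by exact_mod_cast hk1)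
  have h5 : 0 ≤ ∑ ψ ∈ (B0 M G).erase (irrOne G), Complex.normSq ((ψ : G → ℂ) a) :=
    Finset.sum_nonneg fun ψ _ => Complex.normSq_nonneg _
  have h6 := mul_le_mul_of_nonneg_left h4 (show 0 ≤ beta M a by linarith)
  have h7 := mul_le_mul_of_nonneg_right hk2 hq.le
  linarith

/-- otherwise `a, a⁻¹, c, c⁻¹` are four distinct elements of `Orb H a` (odd order, `isConj_inv`) -/
theorem fin1 (hb : Blk p M H) (hf : Faith M G) {a c : G} (ha : a ∈ H) (ha1 : a ≠ 1) (hc : c ∈ H)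
    (hca : IsConj c a) : c = a ∨ c = a⁻¹ := by
  classical
  by_contra hn
  obtain ⟨n1, n2⟩ := not_or.1 hn
  have hc1 : c ≠ 1 := fun e => ha1 (isConj_one_right.1 (e ▸ hca))
  have odd : ∀ x ∈ H, x ≠ 1 → x ≠ x⁻¹ := fun x hx h1 e => by
    obtain ⟨j, hj⟩ := hb.hyp.pElt hx
    have h2 : orderOf x = 2 := orderOf_eq_prime (by rw [sq, mul_eq_one_iff_eq_inv]; exact e) h1
    exact hb.odd ((Nat.prime_dvd_prime_iff_eq Nat.prime_two hp.out).1
      (Nat.prime_two.dvd_of_dvd_pow (by rw [← hj, h2]))).symm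
  have sub : ({a, a⁻¹, c, c⁻¹} : Finset G) ⊆ Orb H a := by
    intro x hx
    simp only [Finset.mem_insert, Finset.mem_singleton] at hx
    rcases hx with rfl | rfl | rfl | rfl
    · exact mem_Orb.2 ⟨ha, IsConj.refl _⟩
    · exact mem_Orb.2 ⟨inv_mem ha, isConj_inv hb hf ha ha1⟩
    · exact mem_Orb.2 ⟨hc, hca⟩
    · exact mem_Orb.2 ⟨inv_mem hc, (isConj_inv hb hf hc hc1).trans hca⟩
  have h4 : ({a, a⁻¹, c, c⁻¹} : Finset G).card = 4 := Finset.card_eq_four.2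
    ⟨a, a⁻¹, c, c⁻¹, odd a ha ha1, Ne.symm n1, fun e => n2 (by rw [e, inv_inv]), Ne.symm n2,
      fun e => n1 (inv_injective e).symm, odd c hc hc1, rfl⟩
  have := (Finset.card_le_card sub).trans (card_Orb_le hb hf ha ha1)
  omega

end CfsgLib.XC
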