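import Mathlib
import Cfsg.Agent.Lib.XC.FA

/-! XC/FB: in the faithful case `H` has no proper nontrivial subgroup. -/

set_option autoImplicit false
set_option linter.unusedSectionVars false
set_option linter.unusedVariables false

namespace CfsgLib.XC

open Subgroup Cfsg CfsgLib.PComp CfsgLib.Tech CfsgLib.Char
open scoped ComplexConjugate

variable {G : Type*} [Group G] [Finite G] {p : ℕ} [hp : Fact p.Prime] {H : Subgroup G} {M : Ideal AlgInt}
  {χ : G → ℂ}

/-- the characters of the block vanish outside `A` unless their sum over `A` does -/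
theorem fin2a (hb : Blk p M H) (hf : Faith M G) {A : Subgroup G} (hA : A ≤ H) (hA1 : A ≠ ⊥) {a : G}
    (ha : a ∈ H) (haA : a ∉ A) {ψ : IrrCharacter G} (hψ : ψ ∈ B0 M G) (hψ1 : ψ ≠ irrOne G) :
    SS A (ψ : G → ℂ) * conj ((ψ : G → ℂ) a) = 0 := by
  by_contra hn
  obtain ⟨h1, h2⟩ := mul_ne_zero_iff.1 hn
  rw [map_ne_zero] at h2
  have hD : ∀ n ∈ normalizer (H : Set G), ∀ b ∈ fs (A : Set G), n * b * n⁻¹ ∈ fs (A : Set G) := fun n hn b hb' => by
    rw [mem_fs] at hb' ⊢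
    by_cases e : b = 1
    · simp [e]
    rcases fin1 hb hf (hA hb') e ((mem_normalizer_iff.1 hn b).1 (hA hb')) (isConj_iff.2 ⟨n, rfl⟩).symm with k | k <;>
      rw [k]
    exacts [hb', A.inv_mem hb']
  have id : ∀ x ∈ H, x ∉ A → (ψ : G → ℂ) 1 * ∑ b ∈ fs (A : Set G), (ψ : G → ℂ) (b * x) =
      (ψ : G → ℂ) x * SS A ψ := fun x hx hxA =>
    idD hb.hyp ψ.2 (hb.good ψ hψ) _ (fun b hb' => hA (mem_fs.1 hb')) hD hx fun b hb' e =>
      hxA (eq_inv_of_mul_eq_one_right e ▸ A.inv_mem (mem_fs.1 hb'))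
  have h3 : ∀ c ∈ fs (A : Set G), (ψ : G → ℂ) (c * a) = (ψ : G → ℂ) a := fun c hc => by
    have hc' : c ∈ A := mem_fs.1 hc
    refine mul_right_cancel₀ h1 ?_
    rw [← id _ ha haA, ← id _ (mul_mem (hA hc') ha) fun e => haA ((A.mul_mem_cancel_left hc').1 e)]
    refine congrArg _ (Finset.sum_equiv (Equiv.mulRight c) (fun b => ?_) fun b _ => ?_)
    · simp only [mem_fs, SetLike.mem_coe, Equiv.coe_mulRight, A.mul_mem_cancel_right hc']
    · rw [Equiv.coe_mulRight, mul_assoc]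
  have h4 := id a ha haA
  rw [Finset.sum_congr rfl h3, Finset.sum_const, card_fs, nsmul_eq_mul, ← mul_assoc, mul_comm _ ((ψ : G → ℂ) a)] at h4
  have h5 := SS_re_lt (A := A) (irr_isCharacter ψ) (by rw [hf ψ hψ hψ1, le_bot_iff]; exact hA1)
  rw [← mul_left_cancel₀ h2 h4, mul_comm] at h5
  simp at h5

/-- `key1` for `A`: the left side is `|A|`, while `Orb A a = ∅` -/
theorem fin2 (hb : Blk p M H) (hf : Faith M G) {A : Subgroup G} (hA : A ≤ H) (hA1 : A ≠ ⊥) : A = H := by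
  refine le_antisymm hA fun a ha => ?_
  by_contra haA
  have k := key1 hb.modu (hb.hyp.pg.to_le hA) (hb.hyp.pElt ha)
  have e : Orb A a = ∅ := Finset.eq_empty_of_forall_notMem fun c hc => by
    obtain ⟨h1, h2⟩ := mem_Orb.1 hc
    rcases fin1 hb hf ha (fun e => haA (e ▸ one_mem A)) (hA h1) h2 with e | e <;> rw [e] at h1
    exacts [haA h1, haA (inv_mem_iff.1 h1)]
  rw [e, Finset.sum_eq_single_of_mem _ (irrOne_mem_B0 hb.modu) fun ψ h1 h2 => fin2a hb hf hA hA1 ha haA h1 h2] at k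
  simp [SS, irrOne_apply, card_fs, Nat.card_pos.ne'] at k

/-- `A = ⟨x⟩` with `x ∈ H` of order `p` (Cauchy) -/
theorem card_eq_prime (hb : Blk p M H) (hf : Faith M G) (hH : H ≠ ⊥) : Nat.card H = p := by
  obtain ⟨x, hx⟩ := exists_prime_orderOf_dvd_card' (G := H) p
    ((hb.hyp.pg.card_eq_or_dvd).resolve_left fun e => hH (eq_bot_of_card_eq _ e))
  have h1 : orderOf (x : G) = p := (orderOf_coe x).trans hx
  rw [← fin2 hb hf (zpowers_le.2 x.2) fun e => hp.out.ne_one (by rw [← h1, zpowers_eq_bot.1 e, orderOf_one]),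
    Nat.card_zpowers, h1]

end CfsgLib.XC
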