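import Mathlib
import Cfsg.Agent.Lib.XC.FB

/-! XC/FC: the faithful case is impossible. -/

set_option autoImplicit false
set_option linter.unusedSectionVars false
set_option linter.unusedVariables false

namespace CfsgLib.XC

open Subgroup Cfsg CfsgLib.PComp CfsgLib.Tech CfsgLib.Char
open scoped ComplexConjugate

variable {G : Type*} [Group G] [Finite G] {p : ℕ} [hp : Fact p.Prime] {H : Subgroup G} {M : Ideal AlgInt}
  {χ : G → ℂ}

/-- `|H| = p` (`card_eq_prime`); by `const_of_prime` (and `irrOne`) `∑ ψ b conj (ψ a) = β > 0`, so `b ~ a` (`orth`) and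
`b = a` or `a⁻¹` (`fin1`) -/
theorem mem_three (hb : Blk p M H) (hf : Faith M G) {a b : G} (ha : a ∈ H) (ha1 : a ≠ 1) (hb' : b ∈ H) :
    b = 1 ∨ b = a ∨ b = a⁻¹ := by
  by_cases hb1 : b = 1
  · exact .inl hb1
  have hH : H ≠ ⊥ := fun e => ha1 (mem_bot.1 (e ▸ ha))
  refine .inr (fin1 hb hf ha ha1 hb' (by_contra fun hn => ?_))
  have h1 := orth hb.modu (hb.hyp.pElt ha) (hb.hyp.pElt hb') hn
  rw [Finset.sum_congr rfl (g := fun ψ : IrrCharacter G => (ψ : G → ℂ) a * conj ((ψ : G → ℂ) a)) fun ψ hψ => by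
    by_cases e : ψ = irrOne G
    · rw [e]; rfl
    · rw [const_of_prime hb.hyp (card_eq_prime hb hf hH) ψ.2 (hb.good ψ hψ)
        (SS_ne_zero hb.hyp hb.cf hH ψ.2 (hb.good ψ hψ) (hf ψ hψ e)) hb' hb1 ha ha1], orth_conj (IsConj.refl a)] at h1
  obtain ⟨n, hn, e⟩ := beta_nat hb.modu a
  rw [e] at h1
  exact hn.ne' (by exact_mod_cast h1)

/-- `H = {1, a, a⁻¹}` with `a ≠ a⁻¹`, `Orb H a = {a, a⁻¹}` (`isConj_inv`), `S_ψ = ψ 1 + 2 ψ a` (`ψ a` real).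
`S_ψ = 3 m` (`SS_nat`), so `ψ a` is a rational algebraic integer. Take `ψ₀` from `exists_neg`: `t = |ψ₀ a|² ≥ 1`,
`x_{ψ₀} < 1`. `key2`: `2 β = 3 + t x_{ψ₀} + ∑' < 3 + t + 2 (β - 1 - t) = 2 β + 1 - t ≤ 2 β` (`SS_le`). -/
theorem simple_case (hb : Blk p M H) (hf : Faith M G) (hH : H ≠ ⊥) : False := by
  classical
  obtain ⟨⟨a, ha⟩, h1⟩ := ne_bot_iff_exists_ne_one.1 hH
  have ha1 : a ≠ 1 := fun e => h1 (Subtype.ext e)
  obtain ⟨k, hk⟩ := hb.hyp.pElt ha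
  have hpa : p ∣ orderOf a := hk ▸ dvd_pow_self p fun e => ha1 (orderOf_eq_one_iff.1 (by rw [hk, e, pow_zero]))
  have hi : a ≠ a⁻¹ := fun e => hb.odd ((Nat.prime_dvd_prime_iff_eq hp.out Nat.prime_two).1
    (hpa.trans (orderOf_dvd_of_pow_eq_one (by rw [sq]; exact mul_eq_one_iff_eq_inv.2 e))))
  have hc := isConj_inv hb hf ha ha1
  have e1 : fs (H : Set G) = {1, a, a⁻¹} := Finset.ext fun b => by
    simp only [mem_fs, SetLike.mem_coe, Finset.mem_insert, Finset.mem_singleton]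
    refine ⟨mem_three hb hf ha ha1, ?_⟩
    rintro (rfl | rfl | rfl)
    exacts [one_mem _, ha, inv_mem ha]
  have e2 : Orb H a = {a, a⁻¹} := Finset.ext fun b => by
    simp only [mem_Orb, Finset.mem_insert, Finset.mem_singleton]
    refine ⟨fun h => fin1 hb hf ha ha1 h.1 h.2, ?_⟩
    rintro (rfl | rfl)
    exacts [⟨ha, IsConj.refl _⟩, ⟨inv_mem ha, hc⟩]
  have n1 : (1 : G) ∉ ({a, a⁻¹} : Finset G) := by simp [ha1.symm, ha1]
  have n2 : a ∉ ({a⁻¹} : Finset G) := by simpa using hi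
  have e3 : Nat.card H = 3 := by rw [← card_fs, e1, Finset.card_insert_of_notMem n1, Finset.card_pair hi]
  have e4 : ∀ ψ : IrrCharacter G, SS H (ψ : G → ℂ) = (ψ : G → ℂ) 1 + 2 * (ψ : G → ℂ) a := fun ψ => by
    obtain ⟨c, hc⟩ := isConj_iff.1 hc
    rw [SS, e1, Finset.sum_insert n1, Finset.sum_pair hi, two_mul]
    congr 2
    conv_rhs => rw [← hc]
    obtain ⟨_, n, ρ, -, rfl⟩ := ψ
    exact (ρ.char_conj _ _).symm
  obtain ⟨ψ₀, m0, m1, m2⟩ := exists_neg hb.modu hpa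
  obtain ⟨m, hm⟩ := SS_nat H (irr_isCharacter ψ₀)
  obtain ⟨n, hn⟩ := exists_char_one_eq_nat (irr_isCharacter ψ₀)
  obtain ⟨t, ht⟩ := exists_int_of_isIntegral_of_rat (isIntegral_char (irr_isCharacter ψ₀) a) ⟨(3 * m - n) / 2, by
    rw [e4, e3, hn] at hm
    push_cast at hm ⊢
    linear_combination hm / 2⟩
  have k1 := key2 hb ha ha1
  rw [e2, Finset.card_pair hi, beta, Finset.sum_mul, ← sub_eq_zero, ← Finset.sum_sub_distrib,
    ← Finset.add_sum_erase _ _ (irrOne_mem_B0 hb.modu), ← Finset.add_sum_erase _ _ (Finset.mem_erase.2 ⟨m1, m0⟩)] at k1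
  have k2 : ∑ ψ ∈ ((B0 M G).erase (irrOne G)).erase ψ₀, (Complex.normSq ((ψ : G → ℂ) a) *
      ((SS H (ψ : G → ℂ)).re / ((ψ : G → ℂ) 1).re) - Complex.normSq ((ψ : G → ℂ) a) * ((2 : ℕ) : ℝ)) ≤ 0 :=
    Finset.sum_nonpos fun ψ hψ => by
      obtain ⟨a1, a2⟩ := Finset.mem_erase.1 (Finset.mem_of_mem_erase hψ)
      refine sub_nonpos.2 (mul_le_mul_of_nonneg_left ((div_le_iff₀ (irr_one_re ψ.2).1).2 ?_) (Complex.normSq_nonneg _))
      exact_mod_cast SS_le hb.hyp ψ.2 (hb.good ψ a2) fun h => hH (le_bot_iff.1 (hf ψ a2 a1 ▸ h))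
  have k3 := (irr_one_re ψ₀.2).1
  have k4 : (SS H (ψ₀ : G → ℂ)).re / ((ψ₀ : G → ℂ) 1).re < 1 := (div_lt_one k3).2 (by
    rw [e4]; simp only [Complex.add_re, Complex.mul_re, Complex.re_ofNat, Complex.im_ofNat]; linarith)
  have k5 : 1 ≤ Complex.normSq ((ψ₀ : G → ℂ) a) := by
    rw [ht] at m2 ⊢
    have h2 : t < 0 := by simpa using m2
    rw [Complex.normSq_intCast]
    exact_mod_cast (by nlinarith : 1 ≤ t * t)
  rw [e4 (irrOne G)] at k1
  simp only [irrOne_apply] at k1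
  norm_num at k1 k2
  nlinarith

end CfsgLib.XC
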