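import Mathlib
import Cfsg.Agent.Lib.XC.KS

/-! XC/FR: consequences of `TT` and passage to subgroups and quotients. -/

set_option autoImplicit false
set_option linter.unusedSectionVars false
set_option linter.unusedVariables false

namespace CfsgLib.XC

open Subgroup Cfsg CfsgLib.PComp CfsgLib.Tech CfsgLib.Char
open scoped ComplexConjugate

variable {G : Type*} [Group G] [Finite G] {p : ℕ} [hp : Fact p.Prime] {H : Subgroup G} {M : Ideal AlgInt}
  {χ : G → ℂ}

/-- `H` is Sylow in `X = ⟨H^G⟩` (`isSylowIn_of_maximal`, `exists_mem_normalizer_of_lt`, as in `ExtCl.isSylowIn`), then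
`ExtCl.sup_opOf_of_sylow` -/
theorem sup_opOf_ncl (h : Hyp p H) (ht : TT H) :
    H ⊔ opOf p (normalClosure (H : Set G)) = normalClosure (H : Set G) :=
  ExtCl.sup_opOf_of_sylow (isSylowIn_of_maximal h.pg le_normalClosure fun R hR h1 h2 => by
    by_contra hn
    obtain ⟨x, hx, hx1, hx2⟩ := exists_mem_normalizer_of_lt hR (lt_of_le_not_ge h1 hn)
    exact hx1 (ht ⟨h2 hx, hx2⟩)) fun x hx y hy => h.comm hy (ht hx)

/-- `frattini`, `sup_opOf_ncl`, `opOf_le_pPrimeCore` -/
theorem factor (h : Hyp p H) (ht : TT H) : normalizer (H : Set G) ⊔ pPrimeCore p G = ⊤ := by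
  rw [eq_top_iff, ← frattini h (X := normalClosure (H : Set G)) le_normalClosure, ← sup_opOf_ncl h ht]
  exact sup_le le_sup_left (sup_le (le_normalizer.trans le_sup_left)
    ((opOf_le_pPrimeCore (Normal.isSubnormal inferInstance)).trans le_sup_right))

/-- `X = ⟨H^G⟩`; the normal closure `Y` of `H` in `X` is all of `X`: `g = k n` (`exists_KK`), `k ∈ X`, so `cj g H = cj k H ≤ Y` -/
theorem tt_of_proper (h : Hyp p H) (ht : TT (H.subgroupOf (normalClosure (H : Set G)))) : TT H := by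
  have h1 : normalClosure (H : Set G) ≤
      (normalClosure (H.subgroupOf (normalClosure (H : Set G)) : Set _)).map (normalClosure (H : Set G)).subtype := by
    refine (closure_le _).2 fun x hx => ?_
    obtain ⟨a, ha, hc⟩ := Group.mem_conjugatesOfSet_iff.1 hx
    obtain ⟨g, rfl⟩ := isConj_iff.1 hc
    obtain ⟨k, hk, hn⟩ := exists_KK h g
    have kX : k ∈ normalClosure (H : Set G) := (sup_le le_normalClosure (cj_le_iff.2 fun y hy =>
      normalClosure_normal.conj_mem y (le_normalClosure hy) k) : H ⊔ cj k H ≤ _) (opOf_le _ (mem_KK.1 hk))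
    have h2 := conj_mem_of_mem_normalizer hn ha
    refine ⟨⟨k, kX⟩ * ⟨_, le_normalClosure h2⟩ * ⟨k, kX⟩⁻¹,
      normalClosure_normal.conj_mem _ (le_normalClosure (H := H.subgroupOf _) h2) _, ?_⟩
    change k * (k⁻¹ * g * a * (k⁻¹ * g)⁻¹) * k⁻¹ = _
    group
  intro x hx
  obtain ⟨y, hy, rfl⟩ := h1 hx.1
  exact ht ⟨hy, le_normalizer_comap _ hx.2⟩

omit hp in
/-- the normal closure of the image of `H` is `⊤` -/
theorem norm_le_of_quot (hn : normalClosure (H : Set G) = ⊤) {L : Subgroup G} [L.Normal]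
    (ht : TT (H.map (QuotientGroup.mk' L))) : normalizer (H : Set G) ≤ H ⊔ L := by
  intro x hx
  have h1 : QuotientGroup.mk' L x ∈ H.map (QuotientGroup.mk' L) := by
    refine ht ⟨?_, le_normalizer_map _ (mem_map_of_mem _ hx)⟩
    rw [coe_map, ← map_normalClosure _ _ (QuotientGroup.mk'_surjective L), hn]
    exact mem_map_of_mem _ (mem_top x)
  rwa [← mem_comap, comap_map_eq, QuotientGroup.ker_mk'] at h1

/-- `sup_opOf_ncl` in `G / O`, where the `p'`-core is trivial (`Core` library) -/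
theorem sup_core_of_quot (h : Hyp p H) (hn : normalClosure (H : Set G) = ⊤)
    (ht : TT (H.map (QuotientGroup.mk' (pPrimeCore p G)))) : pPrimeCore p G ⊔ H = ⊤ := by
  have hs := QuotientGroup.mk'_surjective (pPrimeCore p G)
  have h1 := sup_opOf_ncl (h.map hs) ht
  rw [coe_map, ← map_normalClosure _ _ hs, hn, map_top_of_surjective _ hs, opOf_top,
    Core.pPrimeCore_quotient_pPrimeCore, sup_bot_eq] at h1
  have h2 := congrArg (comap (QuotientGroup.mk' (pPrimeCore p G))) h1
  rwa [comap_map_eq, QuotientGroup.ker_mk', comap_top, sup_comm] at h2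

/-- `R` = image in `G` of `O_{p'}` of the normal closure `Y` of `H` in `X`; `Y = H R` by `sup_opOf_ncl` in `X` -/
theorem sub_tt (h : Hyp p H) {X : Subgroup G} (hX : H ≤ X) (ht : TT (H.subgroupOf X)) :
    ∃ R : Subgroup G, R ≤ X ∧ X ≤ normalizer (R : Set G) ∧ (Nat.card R).Coprime p ∧
      R ⊓ normalizer (H : Set G) = ⊥ ∧ X ≤ normalizer ((H ⊔ R : Subgroup G) : Set G) := by
  have n : ∀ Y : Subgroup X, Y.Normal → X ≤ normalizer (Y.map X.subtype : Set G) := fun Y hY x hx =>
    le_normalizer_map X.subtype ⟨⟨x, hx⟩, by rw [normalizer_eq_top]; exact mem_top _, rfl⟩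
  refine ⟨(opOf p (normalClosure (H.subgroupOf X : Set X))).map X.subtype, map_subtype_le _,
    n _ (opOf_normal _), ?_, eq_bot_iff.2 ?_, ?_⟩
  · rw [card_map_of_injective X.subtype_injective]
    exact coprime_card_opOf _
  · rintro _ ⟨⟨y, hy, rfl⟩, h2⟩
    have h3 := (isPGroup_inf_opOf (h.subgroupOf hX).pg _).le ⟨ht ⟨opOf_le _ hy, le_normalizer_comap _ h2⟩, hy⟩
    rw [mem_bot.1 h3, map_one]
    exact one_mem _
  · have e := congrArg (map X.subtype) (sup_opOf_ncl (h.subgroupOf hX) ht)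
    rw [Subgroup.map_sup, map_subgroupOf_eq_of_le hX] at e
    rw [e]
    exact n _ normalClosure_normal

/-- `sub_tt` with `X = C(c)`; `s ∈ KK ∩ X` lies in `H ⊔ cj s H ≤ H ⊔ R`, and a `p'`-element of `H R` lies in `R` -/
theorem loc_of_tt (h : Hyp p H) {c : G} (hc : c ∈ H) (ht : TT (H.subgroupOf (centralizer ({c} : Set G)))) :
    Loc p H c := by
  have hX : H ≤ centralizer ({c} : Set G) := fun x hx => mem_centralizer_singleton_iff.2 (h.comm hx hc)
  obtain ⟨R, h1, h2, h3, h4, h5⟩ := sub_tt h hX ht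
  refine ⟨R, h1, h2, h3, eq_bot_iff.2 ((inf_le_inf_left R (centralizer_le_normalizer _)).trans h4.le),
    fun s hs e => ?_⟩
  have h6 : s ∈ H ⊔ R := (sup_le le_sup_left ((cj_mono s le_sup_left).trans
    (mem_normalizer_iff_cj.1 (h5 (mem_centralizer_singleton_iff.2 e))).le) : H ⊔ cj s H ≤ _)
      (opOf_le _ (mem_KK.1 hs))
  have h7 := not_dvd_of_mem_Kk (mem_KK.1 hs)
  obtain ⟨a, ha, r, hr, rfl⟩ := (Core.mem_sup_of_le_normalizer_right (hX.trans h2)).1 h6
  have h8 : ∀ n : ℕ, (a ^ n)⁻¹ * (a * r) ^ n ∈ R := fun n => by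
    induction n with
    | zero => simp
    | succ n ih =>
      have := mul_mem (conj_mem_of_mem_normalizer (inv_mem (h2 (hX ha))) ih) hr
      rwa [show a⁻¹ * ((a ^ n)⁻¹ * (a * r) ^ n) * a⁻¹⁻¹ * r = (a ^ (n + 1))⁻¹ * (a * r) ^ (n + 1) by
        rw [pow_succ, pow_succ]; group] at this
  obtain ⟨k, hk⟩ := h.pElt ha
  have h9 := h8 (orderOf a)
  rw [pow_orderOf_eq_one, inv_one, one_mul, hk] at h9
  exact zpowers_le.2 h9 (mem_zpowers_pow_iff.2
    (Nat.Coprime.pow_left k ((Nat.Prime.coprime_iff_not_dvd hp.out).2 h7)))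

end CfsgLib.XC
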