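import Mathlib
import Cfsg.Agent.Lib.XC.Defs
import Cfsg.Agent.Lib.Glaub.CyclicCorr

/-! XC/GA: Glauberman values on the coset `C_K(c) c`. -/

set_option autoImplicit false
set_option linter.unusedSectionVars false
set_option linter.unusedVariables false

namespace CfsgLib.XC

open Subgroup Cfsg CfsgLib.PComp CfsgLib.Tech CfsgLib.Char
open scoped ComplexConjugate

variable {G : Type*} [Group G] [Finite G] {p : ℕ} [hp : Fact p.Prime] {H : Subgroup G} {M : Ideal AlgInt}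
  {χ : G → ℂ}

theorem gla0 {Γ : Type*} [Group Γ] [Finite Γ] {K : Subgroup Γ} [K.Normal] {c : Γ}
    (hcop : (Nat.card K).Coprime (orderOf c)) (htop : K ⊔ zpowers c = ⊤) {Θ : Γ → ℂ}
    (hΘ : IsCharacter Γ Θ) (hres : IsIrrCharacter K (fun x : K => Θ x)) :
    ∃ (β : ↥(K ⊓ centralizer ({c} : Set Γ)) → ℂ) (z : ℂ), IsIrrCharacter _ β ∧ z ≠ 0 ∧
      ∀ s : ↥(K ⊓ centralizer ({c} : Set Γ)), Θ ((s : Γ) * c) = z * β s := by
  classical
  have := Fintype.ofFinite Γ
  rw [← Nat.card_zpowers] at hcop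
  have hi := Glaub.index_eq_card_of_sup_top hcop htop
  obtain ⟨E, ⟨h1, h2, h3⟩, -⟩ := Glaub.exists_canonical_of_coprime K (hi ▸ hcop) hres
    fun g n => isClassFunction_of_isCharacter hΘ n g
  have hE : IsIrrCharacter K (fun x : K => E x) := by rw [funext h2]; exact hres
  obtain ⟨β, ε, hβ, hε, h4⟩ := Glaub.exists_sign (C := K ⊓ centralizer ({c} : Set Γ)) hcop htop
    (by rw [Glaub.centralizer_zpowers]) h1 hE
    (h3 ▸ hcop.coprime_dvd_left (Glaub.detOrder_dvd_card _)) (mem_zpowers c) rfl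
  obtain ⟨ψ, hψ, h5, h6⟩ := Glaub.exists_char_mul_ext K (isCharacter_of_isIrr h1) hE hΘ (e := 1)
    fun n => by rw [one_mul, h2]
  have h7 : ψ 1 = 1 := by
    have a := congrFun h6 1
    have b : E 1 = Θ 1 := h2 1
    rw [Pi.mul_apply, ← b] at a
    exact mul_right_cancel₀ (irr_one_ne_zero h1) (by rw [← a, one_mul])
  have h8 := char_mul_of_one_eq_one hψ h7
  refine ⟨β, ψ c * ε, hβ, mul_ne_zero (fun e => ?_) (by rcases hε with rfl | rfl <;> simp),
    fun s => ?_⟩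
  · have := h8 c c⁻¹
    rw [mul_inv_cancel, h7, e, zero_mul] at this
    exact one_ne_zero this
  · rw [h6, Pi.mul_apply, h8, h5 _ s.2.1, h7, h4, one_mul, mul_assoc]

theorem gla {K : Subgroup G} [K.Normal] (hK : (Nat.card K).Coprime p) (hχ : IsIrrCharacter G χ)
    (hres : IsIrrCharacter K (fun x : K => χ x)) {c : G} (hc : ∃ k : ℕ, orderOf c = p ^ k) :
    ∃ (β : ↥(K ⊓ centralizer ({c} : Set G)) → ℂ) (z : ℂ), IsIrrCharacter _ β ∧ z ≠ 0 ∧
      ∀ s : ↥(K ⊓ centralizer ({c} : Set G)), χ ((s : G) * c) = z * β s := by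
  obtain ⟨k, hk⟩ := hc
  have cΓ : c ∈ K ⊔ zpowers c := mem_sup_right (mem_zpowers c)
  have e1 := subgroupOfEquivOfLe (le_sup_left : K ≤ K ⊔ zpowers c)
  obtain ⟨β, z, hβ, hz, h⟩ := gla0 (K := K.subgroupOf (K ⊔ zpowers c)) (c := ⟨c, cΓ⟩)
    (Θ := fun x => χ x)
    (by rw [Nat.card_congr e1.toEquiv, ← orderOf_coe, hk]; exact hK.pow_right k)
    (map_injective (subtype_injective _) (by
      rw [Subgroup.map_sup, subgroupOf_map_subtype, MonoidHom.map_zpowers, ← MonoidHom.range_eq_map,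
        range_subtype, inf_eq_left.2 le_sup_left]
      rfl))
    (isCharacter_restrict _ (isCharacter_of_isIrr hχ))
    (isIrr_comp_mulEquiv (subgroupOfEquivOfLe (le_sup_left : K ≤ K ⊔ zpowers c)) hres)
  let φ : ↥(K ⊓ centralizer ({c} : Set G)) →*
      ↥(K.subgroupOf (K ⊔ zpowers c) ⊓ centralizer ({⟨c, cΓ⟩} : Set ↥(K ⊔ zpowers c))) :=
    MonoidHom.mk' (fun s => ⟨⟨s, mem_sup_left s.2.1⟩, s.2.1, mem_centralizer_singleton_iff.2
      (Subtype.ext (mem_centralizer_singleton_iff.1 s.2.2))⟩) fun _ _ => rfl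
  exact ⟨fun s => β (φ s), z, isIrr_comp_of_surjective φ (fun t => ⟨⟨t.1, t.2.1,
    mem_centralizer_singleton_iff.2 (congrArg Subtype.val (mem_centralizer_singleton_iff.1 t.2.2))⟩,
    rfl⟩) hβ, hz, fun s => h (φ s)⟩

end CfsgLib.XC
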