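import Mathlib
import Cfsg.Agent.Lib.XC.Defs
import Cfsg.Agent.Lib.Glaub.CyclicCorr

/-! XC/KER: invariant characters and fixed-point-free action. -/

set_option autoImplicit false
set_option linter.unusedSectionVars false
set_option linter.unusedVariables false

namespace CfsgLib.XC

open Subgroup Cfsg CfsgLib.PComp CfsgLib.Tech CfsgLib.Char
open scoped ComplexConjugate

variable {G : Type*} [Group G] [Finite G] {p : ℕ} [hp : Fact p.Prime] {H : Subgroup G} {M : Ideal AlgInt}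
  {χ : G → ℂ}

/-- `∑_{r ∈ R} β r ≡ β 1 mod p` (the `H`-orbits on `R \ 1` have size divisible by `p`, `β` is constant on them; see
`Lib/Glaub/Cong`, `PGroup`), `β 1` divides `|Y|`, so the sum is nonzero: the trivial character is a constituent of `β|_R`,
`R ⊴ Y`, and Clifford (`clifford_invariant`) gives `β|_R = β 1`. -/
theorem ker_lemma {Y R : Subgroup G} (hH : IsPGroup p H) (hRY : R ≤ Y) (hYR : Y ≤ normalizer (R : Set G))
    (hHR : H ≤ normalizer (R : Set G)) (hY : (Nat.card Y).Coprime p)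
    (hC : R ⊓ centralizer (H : Set G) = ⊥) {β : Y → ℂ} (hβ : IsIrrCharacter Y β)
    (hinv : ∀ x ∈ H, ∀ r r' : Y, (r : G) ∈ R → (r' : G) = x * r * x⁻¹ → β r' = β r) :
    ∀ r : Y, (r : G) ∈ R → β r = β 1 := by
  classical
  have := Fintype.ofFinite G
  have : (R.subgroupOf Y).Normal := (normal_subgroupOf_iff_le_normalizer hRY).2 hYR
  let := MulAction.compHom R (Glaub.conjAut H R fun s hs g hg => conj_mem_of_mem_normalizer (hHR hs) hg)
  have h1 := Glaub.congP_sum_of_fixed hH (X := R) (Y := Unit) (fun _ => 1) (fun _ _ _ => rfl)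
    (fun x => ⟨fun ⟨_, e⟩ a => e ▸ map_one (Glaub.conjAut H R _ a), fun k => ⟨(), Subtype.ext (Eq.symm (mem_bot.1
      (hC ▸ mem_inf.2 ⟨x.2, fun a ha => mul_inv_eq_iff_eq_mul.1 (congrArg Subtype.val (k ⟨a, ha⟩))⟩)))⟩⟩)
    (fun r => β ⟨r, hRY r.2⟩) (fun r => isIntegral_char (isCharacter_of_isIrr hβ) _)
    fun a r => hinv a a.2 _ _ r.2 rfl
  obtain ⟨d, -, hd⟩ := exists_irr_one_eq_nat hβ
  have h2 : classInner (fun n : R.subgroupOf Y => β n) (fun _ => 1) ≠ 0 := by
    rw [classInner_one_right]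
    refine mul_ne_zero (inv_ne_zero (Nat.cast_ne_zero.2 Nat.card_pos.ne')) fun e => ?_
    rw [← Equiv.sum_comp (subgroupOfEquivOfLe hRY).toEquiv, Fintype.sum_unique (ι := Unit)] at h1
    have h3 : Glaub.CongP p ((0 : ℕ) : ℂ) (d : ℂ) := by
      rw [Nat.cast_zero, ← e, ← hd]
      exact h1
    rw [Glaub.congP_nat_iff hp.out.ne_zero, Nat.cast_zero, eq_comm, ZMod.natCast_eq_zero_iff] at h3
    exact (hp.out.coprime_iff_not_dvd.1 hY.symm) (h3.trans (irr_one_dvd_card hβ hd))
  have h4 := clifford_invariant (R.subgroupOf Y) hβ isIrr_one h2 fun _ => rfl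
  exact fun r hr => (congrFun h4 ⟨r, hr⟩).trans (congrFun h4 1).symm

end CfsgLib.XC
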