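import Mathlib
import Cfsg.Agent.Lib.XC.GA
import Cfsg.Agent.Lib.XC.KER
import Cfsg.Agent.Lib.XC.LOC
import Cfsg.Agent.Lib.XC.ID

/-! XC/GB: extensions of invariant characters of `K` are trivial on `K`. -/

set_option autoImplicit false
set_option linter.unusedSectionVars false
set_option linter.unusedVariables false

namespace CfsgLib.XC

open Subgroup Cfsg CfsgLib.PComp CfsgLib.Tech CfsgLib.Char
open scoped ComplexConjugate

variable {G : Type*} [Group G] [Finite G] {p : ℕ} [hp : Fact p.Prime] {H : Subgroup G} {M : Ideal AlgInt}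
  {χ : G → ℂ}

theorem gb_le (hH : IsPGroup p H) {L R : Subgroup G} [L.Normal] (hsup : L ⊔ H = ⊤)
    (hR : (Nat.card R).Coprime p) : R ≤ L := fun r hr => by
  obtain ⟨l, hl, x, hx, rfl⟩ := mem_sup_of_normal_left.1 (hsup.ge (mem_top r))
  obtain ⟨k, hk⟩ := isPGroup_iff_mem.1 hH x hx
  have h1 : orderOf (QuotientGroup.mk' L (l * x)) ∣ p ^ k := by
    rw [map_mul, show QuotientGroup.mk' L l = 1 from (QuotientGroup.eq_one_iff l).2 hl, one_mul]
    exact (orderOf_map_dvd _ x).trans (orderOf_dvd_of_pow_eq_one hk)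
  exact (QuotientGroup.eq_one_iff _).1 (orderOf_eq_one_iff.1 (Nat.eq_one_of_dvd_coprimes (hR.pow_right k)
    ((orderOf_map_dvd (QuotientGroup.mk' L) _).trans (R.orderOf_dvd_natCard hr)) h1))

/-- `β`, `z` from `gla`; `χ c = z β 1 ≠ 0`. For `c ≠ 1` take `R` from `Loc`: `R ≤ K` (`G / K` is a `p`-group), `H ≤ C(c) ≤ N(R)`,
`β` is `H`-invariant (`χ (x s x⁻¹ c) = χ (s c)`), so `ker_lemma` (`Y = K ⊓ C(c)`) gives `χ (s c) = χ c` on `R`; `good_of_local`. -/
theorem glb (h : Hyp p H) {K : Subgroup G} [K.Normal] (hK : (Nat.card K).Coprime p) (hsup : K ⊔ H = ⊤)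
    (hl : ∀ c ∈ H, c ≠ 1 → Loc p H c) (hχ : IsIrrCharacter G χ)
    (hres : IsIrrCharacter K (fun x : K => χ x)) : Good p H χ ∧ ∀ c ∈ H, χ c ≠ 0 := by
  have cf := isClassFunction_of_isIrr hχ
  refine ⟨good_of_local h cf fun c hc c1 s hs hsc => ?_, fun c hc => ?_⟩
  · obtain ⟨R, h1, h2, h3, h4, h5⟩ := hl c hc c1
    obtain ⟨β, z, hβ, z0, e⟩ := gla hK hχ hres (h.pElt hc)
    have h6 : R ≤ K ⊓ centralizer {c} := le_inf (gb_le h.pg hsup h3) h1
    have h7 := ker_lemma h.pg h6 (inf_le_right.trans h2)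
      (fun x hx => h2 (mem_centralizer_singleton_iff.2 (h.comm hx hc)))
      (hK.coprime_dvd_left (card_dvd_of_le inf_le_left)) h4 hβ (fun x hx r r' _ e1 => mul_left_cancel₀ z0 (by
        rw [← e, ← e, e1, ← cf (r * c) x, mul_assoc, h.comm (inv_mem hx) hc]
        simp only [mul_assoc])) ⟨s, h6 (h5 s hs hsc)⟩ (h5 s hs hsc)
    rw [e ⟨s, h6 (h5 s hs hsc)⟩, h7, ← e, coe_one, one_mul]
  · obtain ⟨β, z, hβ, z0, e⟩ := gla hK hχ hres (h.pElt hc)
    rw [← one_mul c]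
    exact (e 1).trans_ne (mul_ne_zero z0 (irr_one_ne_zero hβ))

/-- `n = k x` with `k ∈ K ⊓ N(H)`, `⁅k, H⁆ ≤ K ⊓ H = ⊥` -/
theorem normalizer_le_cent (h : Hyp p H) {K : Subgroup G} [K.Normal] (hK : (Nat.card K).Coprime p)
    (hsup : K ⊔ H = ⊤) : normalizer (H : Set G) ≤ centralizer (H : Set G) := by
  intro n hn y hy
  obtain ⟨k, hk, x, hx, rfl⟩ := mem_sup_of_normal_left.1 (hsup.ge (mem_top n))
  obtain ⟨m, hm⟩ := h.pg.exists_card_eq
  have h1 : k * y * k⁻¹ * y⁻¹ = 1 := disjoint_def.1 (disjoint_of_coprime_natCard (hm ▸ hK.pow_right m))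
    (by simpa only [mul_assoc] using mul_mem hk (‹K.Normal›.conj_mem _ (inv_mem hk) y))
    (mul_mem (conj_mem_of_mem_normalizer ((mul_mem_cancel_right (le_normalizer hx)).1 hn) hy) (inv_mem hy))
  rw [mul_assoc, h.comm hx hy, ← mul_assoc, ← mul_assoc, ← mul_inv_eq_iff_eq_mul.1 (mul_inv_eq_one.1 h1)]

/-- For `1 ≠ a ∈ H`, `idD` with `D = {a}` gives `χ 1 χ (a²) = (χ a)²`. So `t(a) = ‖χ a‖ / ‖χ 1‖` has `t(a^(2^j)) = t(a)^(2^j)`;
`a^(2^j) = a` for `j = φ(orderOf a) > 0`, `t(a) ≠ 0`, hence `t(a) = 1`: `H ≤ charCenter χ`, which is normal, so it is `⊤`;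
then `G / ker χ` is commutative (`commutator_mem_charKer`), so `H ⊔ ker χ` is normal, `= ⊤`, `G / ker χ` is a `p`-group and
the `p'`-group `K` lies in the kernel. -/
theorem glc (h : Hyp p H) (hp2 : p ≠ 2) {K : Subgroup G} [K.Normal] (hK : (Nat.card K).Coprime p)
    (hsup : K ⊔ H = ⊤) (hn : normalClosure (H : Set G) = ⊤) (hχ : IsIrrCharacter G χ) (hg : Good p H χ)
    (h0 : ∀ c ∈ H, χ c ≠ 0) : K ≤ charKer χ := by
  have cf := isClassFunction_of_isIrr hχ
  have c0 := irr_one_ne_zero hχ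
  have co : ∀ a ∈ H, (2 : ℕ).Coprime (orderOf a) := fun a ha => by
    obtain ⟨k, hk⟩ := h.pElt ha
    exact hk ▸ ((Nat.coprime_primes Nat.prime_two hp.out).2 hp2.symm).pow_right k
  have h1 : ∀ a ∈ H, χ (a ^ 2) / χ 1 = (χ a / χ 1) ^ 2 := fun a ha => by
    have : χ 1 * χ (a * a) = χ a * χ a := by
      rcases eq_or_ne a 1 with rfl | a1
      · rw [one_mul]
      simpa using idD h hχ hg {a} (by simpa) (fun n hn b hb => by
        rw [Finset.mem_singleton] at hb ⊢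
        rw [hb, ← normalizer_le_cent h hK hsup hn a ha, mul_inv_cancel_right]) ha fun b hb e => a1 (by
          rw [Finset.mem_singleton.1 hb, ← sq] at e
          exact orderOf_eq_one_iff.1 (Nat.eq_one_of_dvd_coprimes (co a ha) (orderOf_dvd_of_pow_eq_one e) dvd_rfl))
    rw [sq, div_pow, div_eq_div_iff c0 (pow_ne_zero _ c0)]
    linear_combination χ 1 * this
  have h2 : ∀ j, ∀ a ∈ H, χ (a ^ 2 ^ j) / χ 1 = (χ a / χ 1) ^ 2 ^ j := fun j a ha => by
    induction j with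
    | zero => simp
    | succ j ih => rw [pow_succ, pow_mul, pow_mul, h1 _ (pow_mem ha _), ih]
  have h3 : H ≤ charCenter χ := fun a ha => by
    have h4 := h2 (orderOf a).totient a ha
    have h5 : 1 < 2 ^ (orderOf a).totient := Nat.one_lt_two_pow (Nat.totient_pos.2 (orderOf_pos a)).ne'
    rw [pow_eq_pow_iff_modEq.2 (Nat.ModEq.pow_totient (co a ha)), pow_one,
      ← Nat.sub_add_cancel h5.le, pow_succ, eq_comm, mul_eq_right₀ (div_ne_zero (h0 a ha) c0)] at h4
    have h6 := Complex.norm_eq_one_of_pow_eq_one h4 (by omega)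
    rwa [norm_div, div_eq_one_iff_eq (norm_ne_zero_iff.2 c0), ← mem_charCenter (isCharacter_of_isIrr hχ)] at h6
  have := charCenter_normal cf
  have := charKer_normal cf
  have h4 : ∀ g, g ∈ charCenter χ := fun g => normalClosure_le_normal h3 (hn.ge (mem_top g))
  have : (charKer χ ⊔ H).Normal := ⟨fun n hn g => by
    simpa [commutatorElement_def] using mul_mem (mem_sup_left (commutator_mem_charKer cf (h4 g) n)) hn⟩
  exact gb_le h.pg (eq_top_iff.2 (hn.ge.trans (normalClosure_le_normal fun x hx => mem_sup_right hx))) hK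

end CfsgLib.XC
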