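import Mathlib
import Cfsg.Agent.Lib.XC.GB
import Cfsg.Agent.S4444

/-! XC/GC: the case `G = O_{p'}(G) H`. -/

set_option autoImplicit false
set_option linter.unusedSectionVars false
set_option linter.unusedVariables false

namespace CfsgLib.XC

open Subgroup Cfsg CfsgLib.PComp CfsgLib.Tech CfsgLib.Char
open scoped ComplexConjugate

variable {G : Type*} [Group G] [Finite G] {p : ℕ} [hp : Fact p.Prime] {H : Subgroup G} {M : Ideal AlgInt}
  {χ : G → ℂ}

/-- An `H`-invariant irreducible `θ` of `K` is `G`-invariant (`Glaub.cj_inv_of_sup_top`), extends to `χ`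
(`Glaub.exists_canonical_of_coprime`, `index_eq_card_of_sup_top`), and `glb`, `glc` give `θ = 1`. By `S4444.result` (iv) every
irreducible character of `C = K ⊓ C(H)` has nonzero inner product with the trivial one, so is trivial: `C = ⊥`
(`eq_one_of_forall_irr_eq`). Finally `n = k x ∈ N(H)`, `k ∈ K ⊓ N(H) ≤ C` (`normalizer_le_cent`). -/
theorem claim2 (h : Hyp p H) (hp2 : p ≠ 2) {K : Subgroup G} [K.Normal] (hK : (Nat.card K).Coprime p)
    (hsup : K ⊔ H = ⊤) (hn : normalClosure (H : Set G) = ⊤) (hl : ∀ c ∈ H, c ≠ 1 → Loc p H c) :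
    normalizer (H : Set G) ≤ H := by
  classical
  have := Fintype.ofFinite G
  have hcop : (Nat.card K).Coprime (Nat.card H) := by
    obtain ⟨n, hn⟩ := h.pg.exists_card_eq
    rw [hn]
    exact hK.pow_right n
  have hC : ∀ c : ↥(K ⊓ centralizer (H : Set G)), c = 1 := fun c => eq_one_of_forall_irr_eq fun β hβ => by
    obtain ⟨θ, hθ, m, hm, hpm⟩ := (Cfsg.Agent.S4444.result K H (fun s _ g hg => Normal.conj_mem inferInstance g hg s)
      hcop p hp.out h.pg _ rfl inf_le_left).2.2.2 ⟨β, hβ⟩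
    obtain ⟨χ, ⟨h1, h2, -⟩, -⟩ := Glaub.exists_canonical_of_coprime K
      (by rw [Glaub.index_eq_card_of_sup_top hcop hsup]; exact hcop) θ.2
      (Glaub.cj_inv_of_sup_top hsup (irr_isClassFunction θ) hθ)
    obtain ⟨g1, g2⟩ := glb h hK hsup hl h1 (by rw [funext h2]; exact θ.2)
    have h3 := glc h hp2 hK hsup hn h1 g1 g2
    have e : (fun c : ↥(K ⊓ centralizer (H : Set G)) => (θ : K → ℂ) ⟨c, inf_le_left (b := centralizer (H : Set G)) c.2⟩) =
        χ 1 • fun _ => 1 := funext fun c => by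
      rw [← h2, Pi.smul_apply, smul_eq_mul, mul_one]
      exact (mem_charKer (isCharacter_of_isIrr h1)).1 (h3 c.2.1)
    rw [e, classInner_smul_left] at hm
    by_cases hb : (fun _ => 1) = β
    · rw [← hb]
    · rw [classInner_irr_of_ne isIrr_one hβ hb, mul_zero] at hm
      exact absurd (Nat.cast_eq_zero.1 hm.symm ▸ dvd_zero p) hpm
  intro n hn'
  obtain ⟨k, hk, x, hx, rfl⟩ := Subgroup.mem_sup_of_normal_left.mp (hsup ▸ mem_top n : n ∈ K ⊔ H)
  have h4 : k ∈ normalizer (H : Set G) := by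
    simpa using mul_mem hn' (inv_mem (le_normalizer hx))
  have h5 : k = 1 := congrArg Subtype.val (hC ⟨k, hk, normalizer_le_cent h hK hsup h4⟩)
  rwa [h5, one_mul]

end CfsgLib.XC
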