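import Mathlib
import Cfsg.Agent.Lib.XC.TA
import Cfsg.Agent.Lib.XC.KEY

/-! XC/LA: the case `G = L H`, vanishing outside `L`. -/

set_option autoImplicit false
set_option linter.unusedSectionVars false
set_option linter.unusedVariables false

namespace CfsgLib.XC

open Subgroup Cfsg CfsgLib.PComp CfsgLib.Tech CfsgLib.Char
open scoped ComplexConjugate

variable {G : Type*} [Group G] [Finite G] {p : ℕ} [hp : Fact p.Prime] {H : Subgroup G} {M : Ideal AlgInt}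
  {χ : G → ℂ}

/-- `ψ = φ χ` is irreducible (linear twist); `centralChar ψ g - centralChar χ g = (φ g - 1) * centralChar χ g` and
`φ g - 1` lies in `M` (`(φ g - 1)^(p^j) ≡ 0`); `Block.mem_principalBlock_iff`. Search the library first. -/
theorem twist_mem (hM : IsPModular p M) {ψ : IrrCharacter G} (hψ : ψ ∈ B0 M G) (φ : G →* ℂˣ) {j : ℕ}
    (hφ : ∀ g, φ g ^ p ^ j = 1) : ∃ ψ' ∈ B0 M G, ∀ g, (ψ' : G → ℂ) g = φ g * (ψ : G → ℂ) g := by
  have hirr : IsIrrCharacter G ((ψ : G → ℂ) * fun g => ((φ g : ℂˣ) : ℂ)) :=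
    isIrr_mul_of_one_eq_one ψ.2 (isCharacter_of_isIrr (isIrr_unitsHom φ)) (by simp)
  refine ⟨⟨_, hirr⟩, ?_, fun g => mul_comm _ _⟩
  rw [mem_B0, Block.mem_principalBlock_iff] at hψ ⊢
  intro g
  refine Block.li_sub_trans hM ?_ (hψ g)
  have e : centralChar ((ψ : G → ℂ) * fun g => ((φ g : ℂˣ) : ℂ)) g - centralChar (ψ : G → ℂ) g =
      (((φ g : ℂˣ) : ℂ) - 1) * centralChar (ψ : G → ℂ) g := by
    simp only [centralChar, Pi.mul_apply, map_one, Units.val_one, mul_one]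
    ring
  change MemLocalIdeal M (centralChar ((ψ : G → ℂ) * fun g => ((φ g : ℂˣ) : ℂ)) g - _)
  rw [e]
  refine Block.li_mul_right hM (Block.li_sub_one_of_pow hM (k := j) ?_) (Block.lr_centralChar hM ψ.2 g)
  rw [← Units.val_pow_eq_pow_val, hφ g, Units.val_one]

/-- `G / L` is a commutative `p`-group (image of `H`); `CommGroup.exists_apply_ne_one_of_hasEnoughRootsOfUnity` -/
theorem exists_lin (h : Hyp p H) {L : Subgroup G} [L.Normal] (hsup : L ⊔ H = ⊤) {a : G} (haL : a ∉ L) :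
    ∃ (φ : G →* ℂˣ) (j : ℕ), (∀ g, φ g ^ p ^ j = 1) ∧ (∀ x ∈ L, φ x = 1) ∧ φ a ≠ 1 := by
  have hs : ∀ q : G ⧸ L, ∃ x ∈ H, (x : G ⧸ L) = q := by
    intro q
    have h1 : H.map (QuotientGroup.mk' L) = ⊤ := by
      have h2 := congrArg (Subgroup.map (QuotientGroup.mk' L)) hsup
      rw [Subgroup.map_sup, QuotientGroup.map_mk'_self, bot_sup_eq,
        Subgroup.map_top_of_surjective _ (QuotientGroup.mk'_surjective L)] at h2
      exact h2
    have : q ∈ H.map (QuotientGroup.mk' L) := h1 ▸ mem_top q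
    obtain ⟨x, hx, rfl⟩ := this
    exact ⟨x, hx, rfl⟩
  let _ : CommGroup (G ⧸ L) :=
    { (inferInstance : Group (G ⧸ L)) with
      mul_comm := fun q r => by
        obtain ⟨x, hx, rfl⟩ := hs q
        obtain ⟨y, hy, rfl⟩ := hs r
        rw [← QuotientGroup.mk_mul, h.comm hx hy, QuotientGroup.mk_mul] }
  have ha1 : (a : G ⧸ L) ≠ 1 := fun e => haL ((QuotientGroup.eq_one_iff a).1 e)
  obtain ⟨l, hl⟩ := CommGroup.exists_apply_ne_one_of_hasEnoughRootsOfUnity (G ⧸ L) ℂ ha1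
  obtain ⟨j, hj⟩ := IsPGroup.iff_card.1 h.pg
  refine ⟨l.comp (QuotientGroup.mk' L), j, fun g => ?_, fun x hx => ?_, hl⟩
  · obtain ⟨x, hx, e⟩ := hs (g : G ⧸ L)
    have h3 : x ^ p ^ j = 1 := by
      have := pow_card_eq_one' (x := (⟨x, hx⟩ : H))
      rw [hj] at this
      exact congrArg Subtype.val this
    change l (g : G ⧸ L) ^ p ^ j = 1
    rw [← e, ← map_pow, ← QuotientGroup.mk_pow, h3, QuotientGroup.mk_one, map_one]
  · change l (x : G ⧸ L) = 1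
    rw [(QuotientGroup.eq_one_iff x).2 hx, map_one]

/-- `ψ' = φ ψ` is in the block and faithful (else `L ≤ ker ψ'`, so `L ≤ ker ψ = ⊥`). `ψ a` and `φ a ψ a` are real
(`conj_eq`, `SS_ne_zero`); if `ψ a ≠ 0` then `φ a` is real of odd order `p^j`, so `φ a = 1`. -/
theorem vanish (hb : Blk p M H) {L : Subgroup G} [L.Normal] (hL1 : L ≠ ⊥) (hsup : L ⊔ H = ⊤)
    (hmin : ∀ L' : Subgroup G, L'.Normal → L' ≠ ⊥ → L ≤ L') {a : G} (ha : a ∈ H) (haL : a ∉ L)
    {ψ : IrrCharacter G} (hψ : ψ ∈ B0 M G) (hf : charKer (ψ : G → ℂ) = ⊥) : (ψ : G → ℂ) a = 0 := by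
  by_contra hne
  obtain ⟨φ, j, hφ, hφL, hφa⟩ := exists_lin hb.hyp hsup haL
  obtain ⟨ψ', hψ', e⟩ := twist_mem hb.modu hψ φ hφ
  have hH : H ≠ ⊥ := by
    rintro rfl
    exact haL ((mem_bot.1 ha) ▸ L.one_mem)
  have hf' : charKer (ψ' : G → ℂ) = ⊥ := by
    by_contra hk
    have hle := hmin _ (charKer_normal (isClassFunction_of_isIrr ψ'.2)) hk
    apply hL1
    rw [eq_bot_iff, ← hf]
    intro x hx
    have h1 := (mem_charKer (isCharacter_of_isIrr ψ'.2)).1 (hle hx)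
    rw [e, e, hφL x hx, map_one] at h1
    exact (mem_charKer (isCharacter_of_isIrr ψ.2)).2 (by simpa using h1)
  have r1 := conj_eq hb.hyp ψ.2 (hb.good ψ hψ) (SS_ne_zero hb.hyp hb.cf hH ψ.2 (hb.good ψ hψ) hf) ha
  have r2 := conj_eq hb.hyp ψ'.2 (hb.good ψ' hψ')
    (SS_ne_zero hb.hyp hb.cf hH ψ'.2 (hb.good ψ' hψ') hf') ha
  rw [e, map_mul, r1] at r2
  have r3 : conj ((φ a : ℂˣ) : ℂ) = φ a := mul_right_cancel₀ hne r2
  obtain ⟨r, hr⟩ := Complex.conj_eq_iff_real.1 r3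
  have hodd : Odd (p ^ j) := (hp.out.odd_of_ne_two hb.odd).pow
  have h4 : r ^ p ^ j = 1 ^ p ^ j := by
    have h5 : ((φ a : ℂˣ) : ℂ) ^ p ^ j = 1 := by
      rw [← Units.val_pow_eq_pow_val, hφ a, Units.val_one]
    rw [hr] at h5
    rw [one_pow]
    exact_mod_cast h5
  have h6 : r = 1 := hodd.strictMono_pow.injective h4
  apply hφa
  ext
  rw [hr, h6]
  simp

end CfsgLib.XC
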