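import Mathlib
import Cfsg.Agent.Lib.XC.LA

/-! XC/LB: the case `G = L H`, `L < G` is impossible. -/

set_option autoImplicit false
set_option linter.unusedSectionVars false
set_option linter.unusedVariables false

namespace CfsgLib.XC

open Subgroup Cfsg CfsgLib.PComp CfsgLib.Tech CfsgLib.Char
open scoped ComplexConjugate

variable {G : Type*} [Group G] [Finite G] {p : ℕ} [hp : Fact p.Prime] {H : Subgroup G} {M : Ideal AlgInt}
  {χ : G → ℂ}

/-- each term of `∑ ψ (z a) conj (ψ a)` is `0` (faithful, `vanish`) or `|ψ a|²` (`L ≤ ker ψ` by `hmin`,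
`charKer_normal`), the principal character gives `1`; so `orth` fails -/
theorem conj_of_mem (hb : Blk p M H) {L : Subgroup G} [L.Normal] (hL1 : L ≠ ⊥) (hsup : L ⊔ H = ⊤)
    (hmin : ∀ L' : Subgroup G, L'.Normal → L' ≠ ⊥ → L ≤ L') {a : G} (ha : a ∈ H) (haL : a ∉ L)
    {z : G} (hz : z ∈ L) (hza : ∃ k : ℕ, orderOf (z * a) = p ^ k) : IsConj (z * a) a := by
  by_contra hn
  have h0 := congrArg Complex.re (orth hb.modu (hb.hyp.pElt ha) hza hn)
  rw [Complex.re_sum, Complex.zero_re] at h0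
  refine (Finset.sum_pos' (fun ψ hψ => ?_) ⟨_, irrOne_mem_B0 hb.modu, by simp [irrOne_apply]⟩).ne' h0
  by_cases hf : charKer (ψ : G → ℂ) = ⊥
  · simp [vanish hb hL1 hsup hmin ha haL hψ hf]
  · rw [mem_charKer_def.1 (hmin _ (charKer_normal (isClassFunction_of_isIrr ψ.2)) hf hz), Complex.mul_conj,
      Complex.ofReal_re]
    exact Complex.normSq_nonneg _

omit [Finite G] in
theorem lb_orbit (Y : Subgroup G) (s : G) :
    Nat.card Y = {v : G | ∃ u ∈ Y, u * s * u⁻¹ = v * s}.ncard * Nat.card ↥(Y ⊓ centralizer {s}) := by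
  letI : MulAction Y G := MulAction.compHom G ((MulAut.conj : G →* MulAut G).comp Y.subtype)
  have hs : MulAction.stabilizer Y s = (Y ⊓ centralizer {s}).subgroupOf Y := by
    ext u
    rw [MulAction.mem_stabilizer_iff, mem_subgroupOf, mem_inf, mem_centralizer_singleton_iff]
    show (u : G) * s * (u : G)⁻¹ = s ↔ _
    rw [mul_inv_eq_iff_eq_mul]
    exact ⟨fun h => ⟨u.2, h⟩, fun h => h.2⟩
  have ho : {v : G | ∃ u ∈ Y, u * s * u⁻¹ = v * s} = (fun v => v * s⁻¹) '' MulAction.orbit Y s := by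
    ext v
    constructor
    · rintro ⟨u, hu, h⟩
      exact ⟨v * s, ⟨⟨u, hu⟩, h⟩, by simp⟩
    · rintro ⟨w, ⟨u, hu⟩, rfl⟩
      exact ⟨u, u.2, by rw [inv_mul_cancel_right]; exact hu⟩
  rw [ho, Set.ncard_image_of_injective _ (mul_left_injective _), ← MulAction.index_stabilizer, hs,
    ← card_mul_relIndex' (inf_le_left : Y ⊓ centralizer {s} ≤ Y), mul_comm]
  rfl

/-- Pick `a ∈ H \ L`, `Q ≥ H` Sylow. For `z ∈ Q ⊓ L`, `z a ~ a`, so `z a ∈ H` (`ExtCl.stronglyClosed`): `Q ⊓ L ≤ H`, and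
`Q = (Q ⊓ L) H = H` is Sylow. `H₀ = H ⊓ L`: `H₀ a` is exactly the `N(H)`-class of `a` (`conj_of_mem`, `fusion`; `G / L` is
commutative), whose size `|N(H) : C_{N(H)}(a)|` divides `|G : H|`, prime to `p`; so `H₀ = ⊥`. Then `|L| = |G : H|` is prime
to `p`, `L ≤ O_{p'}(G) = ⊥`. -/
theorem lh_case (hb : Blk p M H) {L : Subgroup G} [L.Normal] (hL1 : L ≠ ⊥) (hLt : L ≠ ⊤) (hsup : L ⊔ H = ⊤)
    (hmin : ∀ L' : Subgroup G, L'.Normal → L' ≠ ⊥ → L ≤ L') (hO : pPrimeCore p G = ⊥) : False := by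
  obtain ⟨a, ha, haL⟩ : ∃ a ∈ H, a ∉ L := by
    by_contra! c
    exact hLt (by rw [← hsup, sup_eq_left.2 c])
  have dec : ∀ g : G, ∃ l ∈ L, ∃ h ∈ H, l * h = g := fun g =>
    mem_sup_of_normal_left.1 (hsup.ge (mem_top g))
  obtain ⟨Q, hQ, HQ⟩ := exists_isSylowIn_ge hb.hyp.pg (le_top : H ≤ ⊤)
  have QH : Q ≤ H := fun q hq => by
    obtain ⟨l, hl, h, hh, rfl⟩ := dec q
    have lQ : l ∈ Q := (Q.mul_mem_cancel_right (HQ hh)).1 hq
    have h1 := Q.mul_mem lQ (HQ ha)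
    obtain ⟨g, hg⟩ := isConj_iff.1 (conj_of_mem hb hL1 hsup hmin ha haL hl
      (isPGroup_zpowers_iff.1 (isPGroup_zpowers_of_mem hQ.pgroup h1))).symm
    have h2 := (ExtCl.stronglyClosed hb.hyp.pg hb.hyp.cl hQ.pgroup HQ).2 a ha g (hg ▸ h1)
    rw [hg] at h2
    exact H.mul_mem ((H.mul_mem_cancel_right ha).1 h2) hh
  obtain rfl : Q = H := le_antisymm QH HQ
  have hs : {v : G | ∃ u ∈ normalizer (Q : Set G), u * a * u⁻¹ = v * a} = (Q ⊓ L : Subgroup G) := by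
    ext v
    constructor
    · rintro ⟨u, hu, e⟩
      refine ⟨(Q.mul_mem_cancel_right ha).1 (e ▸ conj_mem_of_mem_normalizer hu ha), ?_⟩
      obtain ⟨l, hl, h, hh, rfl⟩ := dec u
      have : v = l * (a * l⁻¹ * a⁻¹) := by
        rw [← mul_inv_eq_iff_eq_mul.2 e, mul_assoc l h a, hb.hyp.comm hh ha]; group
      rw [this]
      exact L.mul_mem hl (Normal.conj_mem inferInstance _ (L.inv_mem hl) a)
    · rintro ⟨h1, h2⟩
      have h3 := Q.mul_mem h1 ha
      exact fusion hb.hyp ha h3 (conj_of_mem hb hL1 hsup hmin ha haL h2 (hb.hyp.pElt h3)).symm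
  have h1 := lb_orbit (normalizer (Q : Set G)) a
  rw [hs] at h1
  obtain ⟨m, hm⟩ := card_dvd_of_le (le_inf le_normalizer fun x hx =>
    mem_centralizer_singleton_iff.2 (hb.hyp.comm hx ha) : Q ≤ normalizer (Q : Set G) ⊓ centralizer {a})
  have h2 := card_dvd_of_le (le_top : normalizer (Q : Set G) ≤ ⊤)
  rw [← card_mul_relIndex' (le_top : Q ≤ ⊤), h1, hm, mul_left_comm] at h2
  have h3 : Nat.card ↥(Q ⊓ L) ∣ Q.relIndex ⊤ :=
    (dvd_mul_right _ m).trans (Nat.dvd_of_mul_dvd_mul_left Nat.card_pos h2)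
  obtain ⟨k, hk⟩ := IsPGroup.iff_card.1 (hQ.pgroup.to_inf_left (K := L))
  have h4 : Q ⊓ L = ⊥ := by
    rcases k with _ | k
    · exact card_eq_one.1 hk
    · exact (hQ.not_dvd ((hk ▸ dvd_pow_self p k.succ_ne_zero).trans h3)).elim
  have h5 := (hQ.inf_of_le_normalizer (N := L) (normalizer_eq_top L).ge).not_dvd
  rw [h4, top_inf_eq, relIndex_bot_left] at h5
  exact hL1 (le_bot_iff.1 (hO ▸ (le_sSup ⟨inferInstance, ((hp.out.coprime_iff_not_dvd).2 h5).symm⟩ :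
    L ≤ pPrimeCore p G)))

end CfsgLib.XC
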