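import Mathlib
import Cfsg.Agent.Lib.XC.FR

/-! XC/MN: normal subgroups of a minimal counterexample with trivial `p'`-core. -/

set_option autoImplicit false
set_option linter.unusedSectionVars false
set_option linter.unusedVariables false

namespace CfsgLib.XC

open Subgroup Cfsg CfsgLib.PComp CfsgLib.Tech CfsgLib.Char
open scoped ComplexConjugate

variable {G : Type*} [Group G] [Finite G] {p : ℕ} [hp : Fact p.Prime] {H : Subgroup G} {M : Ideal AlgInt}
  {χ : G → ℂ}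

/-- a normal subgroup normalizing `H` and meeting it trivially is central -/
theorem mn_cent (hn : normalClosure (H : Set G) = ⊤) {L : Subgroup G} [hL : L.Normal]
    (h1 : L ≤ normalizer (H : Set G)) (h2 : L ⊓ H = ⊥) {x : G} (hx : x ∈ L) (g : G) : g * x = x * g := by
  have h3 : H ≤ centralizer (L : Set G) := by
    intro y hy
    rw [mem_centralizer_iff]
    intro l hl
    have ha : l * y * l⁻¹ * y⁻¹ ∈ L ⊓ H := by
      refine mem_inf.mpr ⟨?_, H.mul_mem (conj_mem_of_mem_normalizer (h1 hl) hy) (H.inv_mem hy)⟩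
      have := L.mul_mem hl (hL.conj_mem _ (L.inv_mem hl) y)
      simpa only [mul_assoc] using this
    rw [h2, mem_bot] at ha
    calc l * y = (l * y * l⁻¹ * y⁻¹) * (y * l) := by group
      _ = y * l := by rw [ha, one_mul]
  have h4 : normalClosure (H : Set G) ≤ centralizer (L : Set G) := normalClosure_le_normal h3
  rw [hn] at h4
  exact (mem_centralizer_iff.mp (h4 (mem_top g)) x hx).symm

/-- an element of `L H` has a `p`-power in `L` -/
theorem mn_pow (h : Hyp p H) {L : Subgroup G} [hL : L.Normal] {x : G} (hx : x ∈ L ⊔ H) :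
    ∃ k : ℕ, x ^ p ^ k ∈ L := by
  obtain ⟨l, hl, y, hy, rfl⟩ := mem_sup_of_normal_left.mp hx
  obtain ⟨k, hk⟩ := isPGroup_iff_mem.mp h.pg y hy
  refine ⟨k, (QuotientGroup.eq_one_iff _).mp ?_⟩
  rw [QuotientGroup.mk_pow, QuotientGroup.mk_mul, (QuotientGroup.eq_one_iff l).mpr hl, one_mul,
    ← QuotientGroup.mk_pow, hk, QuotientGroup.mk_one]

/-- `Q = H ⊔ L` is a `p`-group; `L ⊓ H` is normal in `G` (`ExtCl.stronglyClosed` for `Q`), so trivial; `L ≤ N(Q) ≤ N(H)`, so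
`⁅L, H⁆ ≤ L ⊓ H = ⊥`, `H ≤ C(L)`, `C(L) = ⊤`; `Q` is commutative. If `L ≠ ⊥`: `N(Q) ≤ N(H) ≤ Q`, `Q` is Sylow in `⊤`,
`ExtCl.sup_opOf_of_sylow` gives `Q = ⊤`; so `H` is normal, `H = ⊥`. -/
theorem mn1 (h : Hyp p H) (hcf : CoreFree H) (hH : H ≠ ⊥) (hn : normalClosure (H : Set G) = ⊤)
    (hO : pPrimeCore p G = ⊥)
    (hq : ∀ L : Subgroup G, L.Normal → L ≠ ⊥ → normalizer (H : Set G) ≤ H ⊔ L)
    {L : Subgroup G} [L.Normal] (hL : IsPGroup p L) : L = ⊥ := by
  by_contra hne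
  have hQ : IsPGroup p (H ⊔ L : Subgroup G) := IsPGroup.to_sup_of_normal_right h.pg hL
  have hsc := ExtCl.stronglyClosed h.pg h.cl hQ le_sup_left
  have hNN := ExtCl.normalizer_le h.pg h.cl hQ le_sup_left
  have hnm : (L ⊓ H).Normal := ⟨fun x hx g => by
    have h1 : g * x * g⁻¹ ∈ L := (inferInstance : L.Normal).conj_mem x hx.1 g
    exact ⟨h1, hsc.2 x hx.2 g (mem_sup_right h1)⟩⟩
  have hbot : L ⊓ H = ⊥ := hcf _ hnm inf_le_right
  have hLN : L ≤ normalizer (H : Set G) := le_sup_right.trans (le_normalizer.trans hNN)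
  have hc : ∀ x ∈ L, ∀ g : G, g * x = x * g := fun x hx g => mn_cent hn hLN hbot hx g
  have hNQ : normalizer ((H ⊔ L : Subgroup G) : Set G) ≤ H ⊔ L := hNN.trans (hq L inferInstance hne)
  have hcomm : H ⊔ L ≤ centralizer ((H ⊔ L : Subgroup G) : Set G) := by
    have h1 : ∀ y ∈ H, H ⊔ L ≤ centralizer ({y} : Set G) := fun y hy =>
      sup_le (fun a ha => mem_centralizer_singleton_iff.mpr (h.comm ha hy))
        (fun a ha => mem_centralizer_singleton_iff.mpr (hc a ha y).symm)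
    refine sup_le (fun y hy => mem_centralizer_iff.mpr fun a ha => ?_)
      (fun y hy => mem_centralizer_iff.mpr fun a _ => hc y hy a)
    exact mem_centralizer_singleton_iff.mp (h1 y hy ha)
  have hS : IsSylowIn p (H ⊔ L) ⊤ := by
    refine isSylowIn_of_maximal hQ le_top fun R hR hle _ => ?_
    by_contra hc'
    obtain ⟨x, -, hx1, hx2⟩ := exists_mem_normalizer_of_lt hR (lt_of_le_not_ge hle hc')
    exact hx1 (hNQ hx2)
  have htop := ExtCl.sup_opOf_of_sylow hS (inf_le_right.trans (hNQ.trans hcomm))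
  rw [opOf_top, hO, sup_bot_eq] at htop
  have hHn : H.Normal := by
    rw [← normalizer_eq_top_iff, eq_top_iff]
    exact htop.ge.trans (le_normalizer.trans hNN)
  exact hH (hcf H hHn le_rfl)

/-- If `X = L ⊔ H ≠ ⊤` take `R` from `sub_tt`: `R ≤ L` (`X / L` is a `p`-group), `R ≤ O_{p'}(L) ≤ O_{p'}(G) = ⊥`; so `L ≤ N(H)`,
`L ⊓ H` is a normal `p`-subgroup of `L`, inside `O_p(L)`, which is trivial by `mn1`; so `⁅L, H⁆ = ⊥`, `L` is central;
an element of prime order `r` of `L` generates a normal subgroup: `r = p` contradicts `mn1`, `r ≠ p` contradicts `hO`. -/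
theorem mn2 (h : Hyp p H) (hcf : CoreFree H) (hH : H ≠ ⊥) (hn : normalClosure (H : Set G) = ⊤)
    (hO : pPrimeCore p G = ⊥)
    (hq : ∀ L : Subgroup G, L.Normal → L ≠ ⊥ → normalizer (H : Set G) ≤ H ⊔ L)
    (hs : ∀ X : Subgroup G, H ≤ X → X ≠ ⊤ → TT (H.subgroupOf X))
    {L : Subgroup G} [L.Normal] (hL : L ≠ ⊥) : L ⊔ H = ⊤ := by
  by_contra hne
  obtain ⟨R, hRX, hXR, hRc, -, hXN⟩ := sub_tt h (X := L ⊔ H) le_sup_right (hs _ le_sup_right hne)
  have hRL : R ≤ L := by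
    intro r hr
    obtain ⟨k, hk⟩ := mn_pow h (hRX hr)
    have h1 : (orderOf r).Coprime (p ^ k) :=
      (Nat.Coprime.coprime_dvd_left (orderOf_dvd_natCard (⟨r, hr⟩ : R) |> (orderOf_mk r hr ▸ ·)) hRc).pow_right k
    obtain ⟨m, hm⟩ := exists_pow_eq_self_of_coprime h1.symm
    rw [← hm]
    exact L.pow_mem hk m
  have hR : R = ⊥ := by
    rw [eq_bot_iff, ← hO]
    exact (le_opOf hRL (le_sup_left.trans hXR) hRc).trans
      (opOf_le_pPrimeCore (Subgroup.Normal.isSubnormal inferInstance))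
  rw [hR, sup_bot_eq] at hXN
  have hLN : L ≤ normalizer (H : Set G) := le_sup_left.trans hXN
  haveI := CfsgLib.Core.pCore_characteristic p G
  have hpc : pCore p G = ⊥ := mn1 h hcf hH hn hO hq (CfsgLib.Core.isPGroup_pCore p G)
  have hsub : (L ⊓ H).IsSubnormal := by
    refine (subnIn_of_le_normalizer inf_le_left fun l hl => mem_normalizer_of_forall fun x hx => ?_).isSubnormal
      (Subgroup.Normal.isSubnormal (inferInstance : L.Normal))
    exact ⟨L.mul_mem (L.mul_mem hl hx.1) (L.inv_mem hl), conj_mem_of_mem_normalizer (hLN hl) hx.2⟩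
  have hbot : L ⊓ H = ⊥ := by
    rw [eq_bot_iff, ← hpc]
    exact CfsgLib.Core.le_pCore_of_isSubnormal hsub (h.pg.to_inf_right)
  have hc : ∀ x ∈ L, ∀ g : G, g * x = x * g := fun x hx g => mn_cent hn hLN hbot hx g
  have hcard : Nat.card L ≠ 1 := fun h1 => hL (card_eq_one.mp h1)
  obtain ⟨r, hr, hrd⟩ := Nat.exists_prime_and_dvd hcard
  haveI : Fact r.Prime := ⟨hr⟩
  obtain ⟨y, hy⟩ := exists_prime_orderOf_dvd_card' r hrd
  have hy' : orderOf (y : G) = r := by rw [orderOf_coe]; exact hy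
  haveI hzn : (zpowers (y : G)).Normal := ⟨fun x hx g => by
    rw [hc x (zpowers_le.mpr y.2 hx) g, mul_inv_cancel_right]; exact hx⟩
  have hz : zpowers (y : G) = ⊥ := by
    by_cases hrp : r = p
    · exact mn1 h hcf hH hn hO hq (isPGroup_zpowers_iff.mpr ⟨1, by rw [hy', hrp, pow_one]⟩)
    · rw [eq_bot_iff, ← hO]
      refine CfsgLib.Core.le_pPrimeCore ?_
      rw [Nat.card_zpowers, hy']
      exact (Nat.coprime_primes hr hp.out).mpr hrp
  rw [zpowers_eq_bot] at hz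
  rw [hz, orderOf_one] at hy'
  exact hr.one_lt.ne hy'

/-- `L` minimal among nontrivial normal subgroups; if `L ⊓ L' = ⊥` then `L` embeds in the `p`-group `G / L'` (`mn2`), against `mn1` -/
theorem mn3 (h : Hyp p H) (hcf : CoreFree H) (hH : H ≠ ⊥) (hn : normalClosure (H : Set G) = ⊤)
    (hO : pPrimeCore p G = ⊥)
    (hq : ∀ L : Subgroup G, L.Normal → L ≠ ⊥ → normalizer (H : Set G) ≤ H ⊔ L)
    (hs : ∀ X : Subgroup G, H ≤ X → X ≠ ⊤ → TT (H.subgroupOf X)) :
    ∃ L : Subgroup G, L.Normal ∧ L ≠ ⊥ ∧ L ⊔ H = ⊤ ∧ ∀ L' : Subgroup G, L'.Normal → L' ≠ ⊥ → L ≤ L' := by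
  have hT : (⊤ : Subgroup G) ≠ ⊥ := fun h1 => hH (eq_bot_iff.mpr (h1 ▸ le_top))
  obtain ⟨L, ⟨hLn, hL⟩, hmin⟩ := (wellFounded_lt (α := Subgroup G)).has_min
    {L : Subgroup G | L.Normal ∧ L ≠ ⊥} ⟨⊤, inferInstance, hT⟩
  refine ⟨L, hLn, hL, mn2 h hcf hH hn hO hq hs hL, fun L' hLn' hL' => ?_⟩
  by_cases hb : L ⊓ L' = ⊥
  · refine absurd (mn1 h hcf hH hn hO hq (isPGroup_iff_mem.mpr fun x hx => ?_)) hL
    have ht := mn2 h hcf hH hn hO hq hs hL'
    obtain ⟨k, hk⟩ := mn_pow h (L := L') (x := x) (ht ▸ mem_top x)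
    refine ⟨k, ?_⟩
    rw [← mem_bot, ← hb]
    exact ⟨L.pow_mem hx _, hk⟩
  · by_contra hc
    refine hmin (L ⊓ L') ⟨inferInstance, hb⟩ (lt_of_le_of_ne inf_le_left fun h1 => hc ?_)
    exact inf_eq_left.mp h1

end CfsgLib.XC
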