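import Mathlib
import Cfsg.Agent.Lib.XC.FC
import Cfsg.Agent.Lib.XC.LB
import Cfsg.Agent.Lib.XC.GC
import Cfsg.Agent.Lib.XC.MN
import Cfsg.Agent.Lib.Block.Span

/-! XC/Main: the normal closure of an extremely closed abelian `p`-subgroup (`p` odd) meets its normalizer in it. -/

set_option autoImplicit false
set_option linter.unusedSectionVars false

namespace CfsgLib.XC

open Subgroup Cfsg CfsgLib.PComp CfsgLib.Tech CfsgLib.Char

universe u

theorem step {G : Type u} [Group G] [Finite G] {p : ℕ} [hp : Fact p.Prime] (hp2 : p ≠ 2) {H : Subgroup G}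
    (h : Hyp p H) (hn : normalClosure (H : Set G) = ⊤)
    (hs : ∀ X : Subgroup G, H ≤ X → X ≠ ⊤ → TT (H.subgroupOf X))
    (hq : ∀ (L : Subgroup G) [L.Normal], L ≠ ⊥ → TT (H.map (QuotientGroup.mk' L))) :
    normalizer (H : Set G) ≤ H := by
  by_contra hN
  have hq' : ∀ L : Subgroup G, L.Normal → L ≠ ⊥ → normalizer (H : Set G) ≤ H ⊔ L :=
    fun L _ hL => norm_le_of_quot hn (hq L hL)
  have hcf : CoreFree H := fun L hL hLH => by
    by_contra h1
    exact hN ((hq' L hL h1).trans (sup_le le_rfl hLH))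
  have hH : H ≠ ⊥ := by
    rintro rfl
    refine hN (le_top.trans (hn.ge.trans ?_))
    exact normalClosure_le_normal le_rfl
  have hl : ∀ c ∈ H, c ≠ 1 → Loc p H c := fun c hc hc1 => by
    refine loc_of_tt h hc (hs _ (fun x hx => mem_centralizer_singleton_iff.2 (h.comm hx hc)) fun ht => hc1 ?_)
    have hz : (zpowers c).Normal := ⟨fun x hx g => by
      obtain ⟨k, rfl⟩ := mem_zpowers_iff.1 hx
      have e : Commute g c := mem_centralizer_singleton_iff.1 (ht ▸ mem_top g)
      rw [(e.zpow_right k).eq, mul_inv_cancel_right]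
      exact hx⟩
    exact zpowers_eq_bot.1 (hcf _ hz (zpowers_le.2 hc))
  by_cases hO : pPrimeCore p G = ⊥
  · obtain ⟨M, hM⟩ := Block.exists_isPModular' hp.out
    have hb : Blk p M H := ⟨h, hp2, hM, hcf, good_B0 h hM hl⟩
    obtain ⟨L, hL, hL1, hsup, hmin⟩ := mn3 h hcf hH hn hO hq' hs
    by_cases hLt : L = ⊤
    · refine simple_case hb (fun ψ _ hψ => ?_) hH
      by_contra hk
      have h1 := hmin _ (charKer_normal (irr_isClassFunction ψ)) hk
      rw [hLt, top_le_iff] at h1
      exact hψ (Subtype.ext (irr_eq_one_of_charKer_eq_top ψ.2 h1))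
    · exact lh_case hb hL1 hLt hsup hmin hO
  · have hc : (Nat.card (pPrimeCore p G)).Coprime p := opOf_top (p := p) (G := G) ▸ coprime_card_opOf ⊤
    exact hN (claim2 h hp2 hc (sup_core_of_quot h hn (hq _ hO)) hn hl)

theorem tt {p : ℕ} [hp : Fact p.Prime] (hp2 : p ≠ 2) (n : ℕ) : ∀ (G : Type u) [Group G] [Finite G],
    Nat.card G = n → ∀ H : Subgroup G, Hyp p H → TT H := by
  induction n using Nat.strong_induction_on with
  | _ n ih =>
    intro G _ _ hG H h
    have hs : ∀ X : Subgroup G, H ≤ X → X ≠ ⊤ → TT (H.subgroupOf X) := fun X hX hXt => by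
      refine ih _ ?_ X rfl _ (h.subgroupOf hX)
      rw [← hG]
      exact lt_of_le_of_ne (card_le_card_group X) fun e => hXt (eq_top_of_card_eq X e)
    by_cases hn : normalClosure (H : Set G) = ⊤
    · refine inf_le_right.trans (step hp2 h hn hs fun L _ hL => ?_)
      refine ih _ ?_ (G ⧸ L) rfl _ (h.map (QuotientGroup.mk'_surjective L))
      rw [← hG, card_eq_card_quotient_mul_card_subgroup L]
      exact lt_mul_of_one_lt_right Nat.card_pos ((one_lt_card_iff_ne_bot L).2 hL)
    · exact tt_of_proper h (hs _ le_normalClosure hn)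

theorem main {G : Type*} [Group G] [Finite G] {p : ℕ} [Fact p.Prime] (hp2 : p ≠ 2) {H : Subgroup G}
    (h : Hyp p H) : TT H := tt hp2 _ G rfl H h

end CfsgLib.XC
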